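import Mathlib.Algebra.Module.Basic
import Mathlib.Algebra.Module.BigOperators
import Mathlib.Algebra.Ring.Hom.Defs
import Mathlib.Algebra.BigOperators.Group.Finset.Basic
import Mathlib.Algebra.BigOperators.Ring.Finset
import Mathlib.GroupTheory.Index
import Mathlib.Data.Nat.Prime.Basic
import Mathlib.Tactic.Ring
import Mathlib.Tactic.LinearCombination
import Mathlib.Tactic.Abel

/-!
A quadratic splitting is impossible for an automorphism of odd prime order.

`R` is a commutative ring acting faithfully on `W`, `X` is an additive automorphism of `W` of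
order dividing the odd prime `p`, semilinear with respect to `σ`, and no proper non-trivial
additive subgroup is invariant under `R` and `X`.  If `X` has a non-zero fixed vector and
`W = C + y • C` for the fixed points `C`, then `σ y = y`.
-/

set_option autoImplicit false

namespace CfsgLib.FixGen

open Finset

variable {M : Type*} [AddCommMonoid M]

/-- the sum of an orbit -/
def orbSum (f : M → M) (p : ℕ) (v : M) : M := ∑ i ∈ range p, f^[i] v

theorem orbSum_add {F : Type*} [FunLike F M M] [AddMonoidHomClass F M M] (f : F) (p : ℕ) (v w : M) :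
    orbSum f p (v + w) = orbSum f p v + orbSum f p w := by
  simp only [orbSum, iterate_map_add, sum_add_distrib]

theorem map_orbSum {F : Type*} [FunLike F M M] [AddMonoidHomClass F M M] (f : F) {p : ℕ} (v : M)
    (hp : (⇑f)^[p] v = v) : f (orbSum f p v) = orbSum f p v := by
  unfold orbSum
  rw [map_sum]
  simp only [← Function.iterate_succ_apply' (⇑f)]
  cases p with
  | zero => simp
  | succ n =>
    rw [sum_range_succ, sum_range_succ' _ n, hp]
    simp [add_comm]

theorem orbSum_map {F : Type*} [FunLike F M M] [AddMonoidHomClass F M M] (f : F) {p : ℕ} (v : M)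
    (hp : (⇑f)^[p] v = v) : orbSum f p (f v) = orbSum f p v := by
  unfold orbSum
  simp only [← Function.iterate_succ_apply (⇑f)]
  cases p with
  | zero => simp
  | succ n =>
    rw [sum_range_succ, sum_range_succ' _ n, hp]
    simp [add_comm]

theorem orbSum_of_fixed (f : M → M) (p : ℕ) {v : M} (h : f v = v) : orbSum f p v = p • v := by
  unfold orbSum
  simp [Function.iterate_fixed h]

theorem not_quadratic_split {R W : Type*} [CommRing R] [AddCommGroup W] [Module R W]
    (faith : ∀ a : R, (∀ w : W, a • w = 0) → a = 0) (X : W ≃+ W) (σ : R →+* R)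
    (hσ : ∀ (a : R) (w : W), X (a • w) = σ a • X w) {p : ℕ} (hp : p.Prime) (hp2 : p ≠ 2)
    (hX : ∀ w : W, (⇑X)^[p] w = w) (hpW : ∀ w : W, p • w = 0 → w = 0)
    (irr : ∀ T : AddSubgroup W, (∀ (a : R), ∀ w ∈ T, a • w ∈ T) → (∀ w ∈ T, X w ∈ T) →
      T = ⊥ ∨ T = ⊤)
    (hne : ∃ c : W, c ≠ 0 ∧ X c = c) (y : R)
    (hsplit : ∀ w : W, ∃ c1 c2 : W, X c1 = c1 ∧ X c2 = c2 ∧ w = c1 + y • c2) :
    σ y = y := by
  by_contra hy
  obtain ⟨c0, hc00, hc0⟩ := hne
  have hσit : ∀ (n : ℕ) (a : R) (w : W), (⇑X)^[n] (a • w) = (⇑σ)^[n] a • (⇑X)^[n] w := by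
    intro n
    induction n with
    | zero => intros; rfl
    | succ n ih =>
      intro a w
      simp only [Function.iterate_succ_apply', ih, hσ]
  have hσp : ∀ a : R, (⇑σ)^[p] a = a := by
    intro a
    rw [← sub_eq_zero]
    refine faith _ fun w => ?_
    rw [sub_smul, sub_eq_zero]
    have := hσit p a w
    rw [hX, hX] at this
    exact this.symm
  -- the trace
  set tr : R → R := orbSum (⇑σ) p with htr
  have htrfix : ∀ a, σ (tr a) = tr a := fun a => map_orbSum σ a (hσp a)
  have htradd : ∀ a b, tr (a + b) = tr a + tr b := orbSum_add σ p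
  have htrneg : ∀ a, tr (-a) = - tr a := fun a => by
    simp only [htr, orbSum, iterate_map_neg, sum_neg_distrib]
  have htrsub : ∀ a b, tr (a - b) = tr a - tr b := fun a b => by
    rw [sub_eq_add_neg, htradd, htrneg, sub_eq_add_neg]
  have htrmul : ∀ k a, σ k = k → tr (k * a) = k * tr a := fun k a hk => by
    simp only [htr, orbSum, iterate_map_mul, Function.iterate_fixed hk, mul_sum]
  have htrk : ∀ k, σ k = k → tr k = (p : R) * k := fun k hk => by
    rw [htr, orbSum_of_fixed _ _ hk, nsmul_eq_mul]
  -- the norm map on `W`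
  set N : W → W := orbSum (⇑X) p with hN
  have hNadd : ∀ v w, N (v + w) = N v + N w := orbSum_add X p
  have hNc : ∀ (a : R) (c : W), X c = c → N (a • c) = tr a • c := fun a c hc => by
    simp only [hN, htr, orbSum, hσit, Function.iterate_fixed hc, sum_smul]
  -- `K = fixed ring` acts injectively
  have hinj : ∀ k : R, σ k = k → k ≠ 0 → ∀ w : W, k • w = 0 → w = 0 := by
    intro k hk hk0 w hw
    let T : AddSubgroup W := AddMonoidHom.ker (DistribSMul.toAddMonoidHom W k)
    have hT : ∀ v : W, v ∈ T ↔ k • v = 0 := fun v => AddMonoidHom.mem_ker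
    rcases irr T (fun a v hv => by
        rw [hT] at hv ⊢
        rw [smul_comm, hv, smul_zero])
      (fun v hv => by
        rw [hT] at hv ⊢
        have := hσ k v
        rw [hk, hv, map_zero] at this
        exact this.symm) with h | h
    · exact (AddSubgroup.mem_bot).mp (h ▸ (hT w).mpr hw)
    · exact absurd (faith k fun v => (hT v).mp (h ▸ AddSubgroup.mem_top v)) hk0
  have hcancel : ∀ k : R, σ k = k → k ≠ 0 → ∀ a : R, k * a = 0 → a = 0 := fun k hk hk0 a ha =>
    faith a fun w => hinj k hk hk0 _ (by rw [← mul_smul, ha, zero_smul])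
  have hpR : ∀ a : R, (p : R) * a = 0 → a = 0 := fun a ha => faith a fun w => hpW _ (by
    have := congrArg (· • w) ha
    simpa [mul_smul, Nat.cast_smul_eq_nsmul] using this)
  -- an element killing `C` vanishes
  have hC0 : ∀ b : R, (∀ c : W, X c = c → b • c = 0) → b = 0 := by
    intro b hb
    refine faith b fun w => ?_
    obtain ⟨c1, c2, hc1, hc2, rfl⟩ := hsplit w
    rw [smul_add, hb c1 hc1, smul_comm, hb c2 hc2, smul_zero, add_zero]
  -- the trace form is non-degenerate
  let T : AddSubgroup W :=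
    { carrier := {v | ∀ a : R, N (a • v) = 0}
      zero_mem' := fun a => by
        rw [smul_zero]; simp [hN, orbSum, iterate_map_zero]
      add_mem' := fun {v w} hv hw a => by rw [smul_add, hNadd, hv a, hw a, add_zero]
      neg_mem' := fun {v} hv a => by
        rw [smul_neg, hN, orbSum]
        simp only [iterate_map_neg, sum_neg_distrib, neg_eq_zero]
        exact hv a }
  have hT : T = ⊥ := by
    refine (irr T (fun a v hv b => by rw [← mul_smul]; exact hv _) ?_).resolve_right ?_
    · intro v hv a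
      have h1 : σ ((⇑σ)^[p - 1] a) = a := by
        rw [← Function.iterate_succ_apply' (⇑σ), Nat.succ_eq_add_one,
          Nat.sub_add_cancel hp.one_le, hσp]
      rw [← h1, ← hσ, hN, orbSum_map X _ (hX _)]
      exact hv _
    · intro h
      have h0 : c0 ∈ T := h ▸ AddSubgroup.mem_top c0
      have := h0 1
      rw [one_smul, hN, orbSum_of_fixed _ _ hc0] at this
      exact hc00 (hpW _ this)
  have hnd : ∀ b : R, (∀ w : R, tr (w * b) = 0) → b = 0 := by
    intro b hb
    refine hC0 b fun c hc => ?_
    have : b • c ∈ T := fun a => by rw [← mul_smul, hNc _ _ hc, hb, zero_smul]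
    rw [hT] at this
    exact AddSubgroup.mem_bot.mp this
  -- trace-zero element
  set s : R := (p : R) * y - tr y with hs
  have hσp' : σ (p : R) = p := map_natCast σ p
  have hs0 : s ≠ 0 := by
    intro h
    apply hy
    have h1 : (p : R) * y = tr y := sub_eq_zero.mp h
    have h2 : (p : R) * (σ y - y) = 0 := by
      have := congrArg σ h1
      rw [map_mul, hσp', htrfix] at this
      rw [mul_sub, this, h1, sub_self]
    exact sub_eq_zero.mp (hpR _ h2)
  have htrs : tr s = 0 := by
    rw [hs, htrsub, htrmul _ _ hσp', htrk _ (htrfix y), sub_self]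
  obtain ⟨w, hw⟩ : ∃ w, tr (w * s) ≠ 0 := by
    by_contra h
    push Not at h
    exact hs0 (hnd s h)
  set Δ := tr (w * s) with hΔ
  have hΔσ : σ Δ = Δ := htrfix _
  have hΔi := hinj Δ hΔσ hw
  -- every element is, up to `Δ`, in `K + K s`
  have hrep : ∀ a : R, ∃ m1 m2 : R, σ m1 = m1 ∧ σ m2 = m2 ∧
      (p : R) * Δ * a = m1 + m2 * s := by
    intro a
    refine ⟨Δ * tr a, (p : R) * tr (w * a) - tr w * tr a,
      by simp [htrfix, hΔσ], by simp [htrfix, hσp'], ?_⟩
    rw [← sub_eq_zero]
    refine hC0 _ fun c hc => ?_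
    obtain ⟨c1, c2, hc1, hc2, hac⟩ := hsplit (a • c)
    -- rewrite in the basis `1, s`
    set e1 := (p : R) • c1 + tr y • c2 with he1
    have he1f : X e1 = e1 := by
      rw [he1, map_add, hσ, hσ, hσp', htrfix, hc1, hc2]
    have hpac : ((p : R) * a) • c = e1 + s • c2 := by
      rw [mul_smul, hac, he1, hs, sub_smul, mul_smul, smul_add]
      abel
    have E1 : ((p : R) * tr a) • c = (p : R) • e1 := by
      have := congrArg N hpac
      rw [hNadd, hNc _ _ hc, htrmul _ _ hσp', hNc _ _ hc2, htrs, zero_smul, add_zero,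
        hN, orbSum_of_fixed _ _ he1f, ← Nat.cast_smul_eq_nsmul R] at this
      exact this
    have E1' : tr a • c = e1 := by
      rw [← sub_eq_zero]
      refine hpW _ ?_
      rw [← Nat.cast_smul_eq_nsmul R, smul_sub, ← mul_smul, E1, sub_self]
    have E2 : ((p : R) * tr (w * a)) • c = tr w • e1 + Δ • c2 := by
      have := congrArg (fun v => N (w • v)) hpac
      simp only [smul_add] at this
      rw [hNadd, ← mul_smul, ← mul_smul, hNc _ _ hc, hNc _ _ he1f, hNc _ _ hc2,
        mul_left_comm, htrmul _ _ hσp'] at this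
      exact this
    have E3 : Δ • c2 = ((p : R) * tr (w * a) - tr w * tr a) • c := by
      rw [sub_smul, E2, mul_smul, E1']
      abel
    have E4 : ((p : R) * Δ * a) • c =
        (Δ * tr a + ((p : R) * tr (w * a) - tr w * tr a) * s) • c := by
      rw [show (p : R) * Δ * a = Δ * ((p : R) * a) by ring, mul_smul, hpac, smul_add,
        smul_comm Δ s c2, E3, ← E1', ← mul_smul, ← mul_smul, ← add_smul]
      congr 1
      ring
    rw [sub_smul, E4, sub_eq_zero]
  -- `Δ' σ s = k s`
  obtain ⟨m1, k, hm1, hkσ, hk⟩ := hrep (σ s)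
  set D : R := (p : R) * Δ with hD
  have hDσ : σ D = D := by rw [hD, map_mul, hσp', hΔσ]
  have hD0 : D ≠ 0 := fun h => hw (hpR _ (hD ▸ h))
  have htrσs : tr (σ s) = 0 := by rw [htr, orbSum_map σ _ (hσp s), ← htr, htrs]
  have hm10 : m1 = 0 := by
    have := congrArg tr hk
    rw [htrmul _ _ hDσ, htrσs, mul_zero, htradd, htrk _ hm1, htrmul _ _ hkσ, htrs, mul_zero,
      add_zero] at this
    exact hpR _ this.symm
  rw [hm10, zero_add] at hk
  -- `k ≠ D` and `k² ≠ D²`
  have hDs : ∀ n : ℕ, D ^ n * (⇑σ)^[n] s = k ^ n * s := by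
    intro n
    induction n with
    | zero => simp
    | succ n ih =>
      have h1 := congrArg σ ih
      rw [map_mul, map_mul, map_pow, map_pow, hDσ, hkσ, ← Function.iterate_succ_apply' (⇑σ)] at h1
      linear_combination D * h1 + k ^ n * hk
  have hkD : k ≠ D := by
    intro h
    rw [h, ← sub_eq_zero, ← mul_sub] at hk
    have hss : σ s = s := sub_eq_zero.mp (hcancel D hDσ hD0 _ hk)
    have h1 := htrk s hss
    rw [htrs] at h1
    exact hs0 (hpR _ h1.symm)
  have hkp : k ^ p = D ^ p := by
    have := hDs p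
    rw [hσp] at this
    by_contra hne
    exact hs0 (hcancel (k ^ p - D ^ p) (by rw [map_sub, map_pow, map_pow, hkσ, hDσ])
      (sub_ne_zero.mpr hne) s (by rw [sub_mul, this, sub_self]))
  have hk2 : k ^ 2 ≠ D ^ 2 := by
    intro h2
    obtain ⟨m, hm⟩ := hp.odd_of_ne_two hp2
    apply hkD
    have h1 : D ^ (2 * m) * (k - D) = 0 := by
      have : k ^ p = D ^ (2 * m) * k := by
        rw [hm, pow_succ, pow_mul, h2, ← pow_mul]
      rw [mul_sub, ← this, hkp, hm, pow_succ, sub_self]
    have hpow : ∀ n : ℕ, D ^ n ≠ 0 := by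
      intro n
      induction n with
      | zero =>
        rw [pow_zero]
        intro h
        exact hc00 (by simpa using congrArg (· • c0) h)
      | succ n ih =>
        rw [pow_succ']
        exact fun h => ih (hcancel D hDσ hD0 _ h)
    exact sub_eq_zero.mp (hcancel _ (by rw [map_pow, hDσ]) (hpow _) _ h1)
  have hk0 : k ≠ 0 := by
    intro h
    rw [h, zero_mul] at hk
    have hσs0 := hcancel D hDσ hD0 _ hk
    apply hs0
    have := hσp s
    rw [← Nat.sub_add_cancel hp.one_le, Function.iterate_add_apply,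
      show (⇑σ)^[1] s = σ s from rfl, hσs0, iterate_map_zero] at this
    exact this.symm
  -- `s² = 0`
  obtain ⟨n1, n2, hn1, hn2, hn⟩ := hrep (s * s)
  have hσn := congrArg σ hn
  simp only [map_mul, map_add, hDσ, hn1, hn2] at hσn
  have key : (D ^ 2 - k ^ 2) * n1 = n2 * k * (k - D) * s := by
    linear_combination (-D ^ 2) * hσn + D * (D * σ s + k * s) * hk + k ^ 2 * hn -
      D * n2 * hk
  have hn10 : n1 = 0 := by
    have := congrArg tr key
    rw [htrk _ (by rw [map_mul, map_sub, map_pow, map_pow, hDσ, hkσ, hn1]),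
      htrmul _ _ (by rw [map_mul, map_mul, map_sub, hn2, hkσ, hDσ]), htrs, mul_zero] at this
    exact hcancel _ (by rw [map_sub, map_pow, map_pow, hDσ, hkσ]) (sub_ne_zero.mpr hk2.symm) _
      (hpR _ this)
  have hn20 : n2 * s = 0 := by
    rw [hn10, mul_zero] at key
    refine hcancel k hkσ hk0 _ (hcancel (k - D) (by rw [map_sub, hkσ, hDσ])
      (sub_ne_zero.mpr hkD) _ ?_)
    linear_combination -key
  have hss : s * s = 0 := hcancel D hDσ hD0 _ (by rw [hn, hn10, hn20, add_zero])
  -- the kernel of `s`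
  let U : AddSubgroup W := AddMonoidHom.ker (DistribSMul.toAddMonoidHom W s)
  have hU : ∀ v : W, v ∈ U ↔ s • v = 0 := fun v => AddMonoidHom.mem_ker
  rcases irr U (fun a v hv => by
      rw [hU] at hv ⊢
      rw [smul_comm, hv, smul_zero])
    (fun v hv => by
      rw [hU] at hv ⊢
      refine hinj k hkσ hk0 _ ?_
      rw [← mul_smul, ← hk, mul_smul, ← hσ, hv, map_zero, smul_zero]) with h | h
  · refine hc00 (AddSubgroup.mem_bot.mp (h ▸ (hU c0).mpr ?_))
    have : s • c0 ∈ U := (hU _).mpr (by rw [← mul_smul, hss, zero_smul])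
    rw [h] at this
    exact AddSubgroup.mem_bot.mp this
  · exact hs0 (faith s fun v => (hU v).mp (h ▸ AddSubgroup.mem_top v))

end CfsgLib.FixGen
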