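import Cfsg.Agent.Coprime.External
import Cfsg.Agent.PGroup.Frattini
import Mathlib.GroupTheory.Transfer

/-!
The subgroups `[h, P]`, `[K, P]` for an automorphism `x` and their elementary properties.
-/

set_option autoImplicit false

open scoped commutatorElement

namespace CfsgLib.FixGen

open Subgroup

variable {H : Type*} [Group H] (x : MulAut H)

/-- `[h, P]` -/
def dd (h : H) : Subgroup H := closure {c : H | ∃ i : ℕ, c = h⁻¹ * (x ^ i) h}

/-- `[K, P]` -/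
def dk (K : Subgroup H) : Subgroup H :=
  closure {c : H | ∃ h ∈ K, ∃ i : ℕ, c = h⁻¹ * (x ^ i) h}

/-- the fixed points -/
abbrev fx : Subgroup H := (x : H →* H).eqLocus (MonoidHom.id H)

/-- the subgroup generated by the fixed points of the `[h, P]` -/
def gen : Subgroup H := ⨆ h : H, dd x h ⊓ fx x

/-- invariance -/
def Inv (K : Subgroup H) : Prop := ∀ k ∈ K, x k ∈ K

theorem mem_fx {h : H} : h ∈ fx x ↔ x h = h := Iff.rfl

theorem pow_fix {h : H} (hh : h ∈ fx x) (i : ℕ) : (x ^ i) h = h := by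
  induction i with
  | zero => rfl
  | succ i ih => rw [pow_succ, MulAut.mul_apply, (mem_fx x).mp hh, ih]

theorem Inv.pow {K : Subgroup H} (hK : Inv x K) (i : ℕ) : ∀ k ∈ K, (x ^ i) k ∈ K := by
  induction i with
  | zero => exact fun k hk => hk
  | succ i ih => intro k hk; rw [pow_succ, MulAut.mul_apply]; exact ih _ (hK k hk)

theorem Inv.inf {K K' : Subgroup H} (hK : Inv x K) (hK' : Inv x K') : Inv x (K ⊓ K') :=
  fun _ hk => ⟨hK _ hk.1, hK' _ hk.2⟩

theorem inv_iff_map_le {K : Subgroup H} : Inv x K ↔ K.map (x : H →* H) ≤ K := by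
  rw [map_le_iff_le_comap]; rfl

theorem Inv.sup {K K' : Subgroup H} (hK : Inv x K) (hK' : Inv x K') : Inv x (K ⊔ K') := by
  rw [inv_iff_map_le] at *
  rw [Subgroup.map_sup]
  exact sup_le_sup hK hK'

theorem Inv.commutator {K K' : Subgroup H} (hK : Inv x K) (hK' : Inv x K') : Inv x ⁅K, K'⁆ := by
  rw [inv_iff_map_le] at *
  rw [Subgroup.map_commutator]
  exact Subgroup.commutator_mono hK hK'

theorem inv_fx : Inv x (fx x) := fun k hk => by
  rw [(mem_fx x).mp hk]; exact hk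

theorem inv_closure {S : Set H} (h : ∀ s ∈ S, x s ∈ closure S) : Inv x (closure S) := by
  rw [inv_iff_map_le, MonoidHom.map_closure, closure_le]
  rintro _ ⟨s, hs, rfl⟩
  exact h s hs

theorem mem_dd (h : H) (i : ℕ) : h⁻¹ * (x ^ i) h ∈ dd x h := subset_closure ⟨i, rfl⟩

theorem mem_dk {K : Subgroup H} {h : H} (hh : h ∈ K) (i : ℕ) : h⁻¹ * (x ^ i) h ∈ dk x K :=
  subset_closure ⟨h, hh, i, rfl⟩

theorem dd_le_dk {K : Subgroup H} {h : H} (hh : h ∈ K) : dd x h ≤ dk x K := by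
  rw [dd, closure_le]
  rintro _ ⟨i, rfl⟩
  exact mem_dk x hh i

theorem dd_inv (h : H) : Inv x (dd x h) := by
  refine inv_closure x ?_
  rintro _ ⟨i, rfl⟩
  have : x (h⁻¹ * (x ^ i) h) = (h⁻¹ * (x ^ 1) h)⁻¹ * (h⁻¹ * (x ^ (i + 1)) h) := by
    rw [map_mul, map_inv, pow_one, pow_succ', MulAut.mul_apply]
    group
  rw [this]
  exact mul_mem (inv_mem (mem_dd x h 1)) (mem_dd x h (i + 1))

theorem dk_inv (K : Subgroup H) : Inv x (dk x K) := by
  refine inv_closure x ?_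
  rintro _ ⟨h, hh, i, rfl⟩
  have : x (h⁻¹ * (x ^ i) h) = (h⁻¹ * (x ^ 1) h)⁻¹ * (h⁻¹ * (x ^ (i + 1)) h) := by
    rw [map_mul, map_inv, pow_one, pow_succ', MulAut.mul_apply]
    group
  rw [this]
  exact mul_mem (inv_mem (mem_dk x hh 1)) (mem_dk x hh (i + 1))

theorem dk_mono {K K' : Subgroup H} (h : K ≤ K') : dk x K ≤ dk x K' := by
  rw [dk, closure_le]
  rintro _ ⟨k, hk, i, rfl⟩
  exact mem_dk x (h hk) i

theorem dk_le {K : Subgroup H} (hK : Inv x K) : dk x K ≤ K := by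
  rw [dk, closure_le]
  rintro _ ⟨k, hk, i, rfl⟩
  exact mul_mem (inv_mem hk) (hK.pow x i k hk)

theorem dd_le {K : Subgroup H} (hK : Inv x K) {h : H} (hh : h ∈ K) : dd x h ≤ K :=
  (dd_le_dk x hh).trans (dk_le x hK)

/-- `K` normalizes `[K, P]`. -/
theorem le_normalizer_dk (K : Subgroup H) : K ≤ normalizer (dk x K : Set H) := by
  refine Coprime.le_normalizer_of_conj_mem ?_
  intro k hk g hg
  suffices h : dk x K ≤ (dk x K).comap (MulAut.conj k).toMonoidHom from h hg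
  refine (closure_le _).mpr ?_
  rintro _ ⟨h, hh, i, rfl⟩
  show k * (h⁻¹ * (x ^ i) h) * k⁻¹ ∈ dk x K
  have : k * (h⁻¹ * (x ^ i) h) * k⁻¹
      = ((h * k⁻¹)⁻¹ * (x ^ i) (h * k⁻¹)) * (k⁻¹⁻¹ * (x ^ i) k⁻¹)⁻¹ := by
    rw [map_mul]; group
  rw [this]
  exact mul_mem (mem_dk x (mul_mem hh (inv_mem hk)) i) (inv_mem (mem_dk x (inv_mem hk) i))

theorem conj_mem_dd {c d h : H} (hc : c ∈ fx x) (hd : d ∈ dd x h) :
    c⁻¹ * d * c ∈ dd x (h * c) := by
  suffices hle : dd x h ≤ (dd x (h * c)).comap (MulAut.conj c⁻¹).toMonoidHom by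
    simpa using hle hd
  refine (closure_le _).mpr ?_
  rintro _ ⟨i, rfl⟩
  show c⁻¹ * (h⁻¹ * (x ^ i) h) * c⁻¹⁻¹ ∈ dd x (h * c)
  have : c⁻¹ * (h⁻¹ * (x ^ i) h) * c⁻¹⁻¹ = (h * c)⁻¹ * (x ^ i) (h * c) := by
    rw [map_mul, pow_fix x hc]; group
  rw [this]
  exact mem_dd x _ i

theorem mem_gen {h d : H} (hd : d ∈ dd x h) (hf : d ∈ fx x) : d ∈ gen x :=
  (le_iSup (fun h => dd x h ⊓ fx x) h) ⟨hd, hf⟩

theorem gen_le_fx : gen x ≤ fx x := iSup_le fun _ => inf_le_right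

theorem conj_mem_gen {c l : H} (hc : c ∈ fx x) (hl : l ∈ gen x) : c * l * c⁻¹ ∈ gen x := by
  suffices hle : gen x ≤ (gen x).comap (MulAut.conj c).toMonoidHom from hle hl
  refine iSup_le fun h d hd => ?_
  show c * d * c⁻¹ ∈ gen x
  refine mem_gen x (h := h * c⁻¹) ?_ (mul_mem (mul_mem hc hd.2) (inv_mem hc))
  simpa using conj_mem_dd x (inv_mem hc) hd.1

theorem fx_le_normalizer_dk {V : Subgroup H} (hV : V.Normal) :
    fx x ≤ normalizer (dk x V : Set H) := by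
  refine Coprime.le_normalizer_of_conj_mem ?_
  intro c hc g hg
  suffices h : dk x V ≤ (dk x V).comap (MulAut.conj c).toMonoidHom from h hg
  refine (closure_le _).mpr ?_
  rintro _ ⟨h, hh, i, rfl⟩
  show c * (h⁻¹ * (x ^ i) h) * c⁻¹ ∈ dk x V
  have : c * (h⁻¹ * (x ^ i) h) * c⁻¹ = (c * h * c⁻¹)⁻¹ * (x ^ i) (c * h * c⁻¹) := by
    rw [map_mul, map_mul, map_inv, pow_fix x hc]; group
  rw [this]
  exact mem_dk x (hV.conj_mem h hh c) i


/-- The norm of `x`, composed with a homomorphism to an abelian group. -/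
noncomputable def nrm {A : Type*} [CommGroup A] {K : Subgroup H} (hK : Inv x K) (p : ℕ)
    (f : K →* A) : K →* A :=
  ∏ i ∈ Finset.range p,
    f.comp ((((x ^ i : MulAut H) : H →* H).comp K.subtype).codRestrict K fun k => hK.pow x i k k.2)

theorem nrm_apply {A : Type*} [CommGroup A] {K : Subgroup H} (hK : Inv x K) (p : ℕ)
    (f : K →* A) (k : K) :
    nrm x hK p f k = ∏ i ∈ Finset.range p, f ⟨(x ^ i) (k : H), hK.pow x i k k.2⟩ := by
  rw [nrm, MonoidHom.finsetProd_apply]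
  rfl

theorem nrm_map {A : Type*} [CommGroup A] {K : Subgroup H} (hK : Inv x K) {p : ℕ} (hxp : x ^ p = 1)
    (f : K →* A) (k : K) (hk : x (k : H) ∈ K) : nrm x hK p f ⟨x k, hk⟩ = nrm x hK p f k := by
  rw [nrm_apply, nrm_apply]
  let g : ℕ → A := fun i => f ⟨(x ^ i) (k : H), hK.pow x i k k.2⟩
  have h1 : ∀ i, f ⟨(x ^ i) (x (k : H)), hK.pow x i _ hk⟩ = g (i + 1) := fun i => by
    show f _ = f _
    congr 1
  have hg : g p = g 0 := by
    show f _ = f _
    congr 1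
    apply Subtype.ext
    show (x ^ p) (k : H) = (x ^ 0) (k : H)
    rw [hxp, pow_zero]
  simp only [h1]
  show ∏ i ∈ Finset.range p, g (i + 1) = ∏ i ∈ Finset.range p, g i
  cases p with
  | zero => simp
  | succ n => rw [Finset.prod_range_succ _ n, Finset.prod_range_succ' g n, hg]

theorem nrm_dk {A : Type*} [CommGroup A] {K : Subgroup H} (hK : Inv x K) {p : ℕ} (hxp : x ^ p = 1)
    (f : K →* A) {c : H} (hc : c ∈ dk x K) : nrm x hK p f ⟨c, dk_le x hK hc⟩ = 1 := by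
  suffices h : dk x K ≤ (nrm x hK p f).ker.map K.subtype by
    obtain ⟨⟨k, hk⟩, hk1, rfl⟩ := h hc
    exact hk1
  refine (closure_le _).mpr ?_
  rintro _ ⟨k, hk, i, rfl⟩
  refine ⟨⟨k, hk⟩⁻¹ * ⟨(x ^ i) k, hK.pow x i k hk⟩, ?_, rfl⟩
  show nrm x hK p f _ = 1
  rw [map_mul, map_inv, inv_mul_eq_one]
  induction i with
  | zero => rfl
  | succ i ih =>
    rw [ih, ← nrm_map x hK hxp f ⟨(x ^ i) k, hK.pow x i k hk⟩ (hK _ (hK.pow x i k hk))]
    congr 1
    apply Subtype.ext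
    show x ((x ^ i) k) = (x ^ (i + 1)) k
    rw [pow_succ', MulAut.mul_apply]

/-- If all the translates of `k` have the same image then the norm is a power. -/
theorem nrm_eq_pow {A : Type*} [CommGroup A] {K : Subgroup H} (hK : Inv x K) (p : ℕ)
    (f : K →* A) (k : K) (h : ∀ i : ℕ, f ⟨(x ^ i) (k : H), hK.pow x i k k.2⟩ = f k) :
    nrm x hK p f k = f k ^ p := by
  simp [nrm_apply, h]

section coprime

variable [Finite H] {p : ℕ} [hp : Fact p.Prime]

theorem not_dvd_card (hcop : (Nat.card H).Coprime p) : ¬ p ∣ Nat.card H := fun h =>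
  hp.out.ne_one (Nat.dvd_one.mp (hcop ▸ Nat.dvd_gcd h dvd_rfl))

theorem eq_one_of_pow (hcop : (Nat.card H).Coprime p) {g : H} (hg : g ^ p = 1) : g = 1 := by
  rw [← orderOf_eq_one_iff]
  exact Nat.dvd_one.mp (hcop ▸ Nat.dvd_gcd (orderOf_dvd_natCard g) (orderOf_dvd_of_pow_eq_one hg))

theorem mem_of_pow_mem (hcop : (Nat.card H).Coprime p) {K : Subgroup H} {g : H} (hg : g ^ p ∈ K) :
    g ∈ K := by
  obtain ⟨m, hm⟩ := exists_pow_eq_self_of_coprime (x := g) (n := p)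
    (Nat.Coprime.coprime_dvd_right (orderOf_dvd_natCard g) hcop.symm)
  exact hm ▸ pow_mem hg m

variable (hxp : x ^ p = 1) (hcop : (Nat.card H).Coprime p)
include hxp hcop

/-- Fixed points lift. -/
theorem lift [Group.IsSolvable H] {S N : Subgroup H} (hS : Inv x S) (hN : Inv x N)
    {g : H} (hg : g ∈ S) (hgN : g⁻¹ * x g ∈ N) :
    ∃ n ∈ S ⊓ N, g * n ∈ fx x := by
  have hd : (x : MulAut H) ∈ zpowers x := mem_zpowers x
  have hfin : IsOfFinOrder x := isOfFinOrder_iff_pow_eq_one.mpr ⟨p, hp.out.pos, hxp⟩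
  haveI : Finite (zpowers x) := hfin.finite_zpowers
  have hcard : (Nat.card (zpowers x)).Coprime (Nat.card H) := by
    rw [Nat.card_zpowers]
    exact Nat.Coprime.coprime_dvd_left (orderOf_dvd_of_pow_eq_one hxp) hcop.symm
  have hsplit : ∀ a : zpowers x, ∃ i : ℕ, (a : MulAut H) = x ^ i := fun a => by
    obtain ⟨i, hi⟩ := hfin.mem_powers_iff_mem_zpowers.mpr a.2
    exact ⟨i, hi.symm⟩
  have hSN := hS.inf x hN
  obtain ⟨n, hn, hfix⟩ := Coprime.exists_fixed_mul_of_action (zpowers x).subtype hcard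
    (Or.inr inferInstance) (S ⊓ N)
    (fun a k hk => by
      obtain ⟨i, hi⟩ := hsplit a
      show (a : MulAut H) k ∈ _
      rw [hi]; exact hSN.pow x i k hk)
    (g := g) (fun a => by
      obtain ⟨i, hi⟩ := hsplit a
      show g⁻¹ * (a : MulAut H) g ∈ _
      rw [hi]
      clear hi
      induction i with
      | zero => simp
      | succ i ih =>
        rw [pow_succ', MulAut.mul_apply]
        have : g⁻¹ * x ((x ^ i) g) = (g⁻¹ * x g) * x (g⁻¹ * (x ^ i) g) := by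
          rw [map_mul, map_inv]; group
        rw [this]
        exact (S ⊓ N).mul_mem ⟨S.mul_mem (S.inv_mem hg) (hS g hg), hgN⟩ (hSN _ ih))
  exact ⟨n, hn, hfix ⟨x, hd⟩⟩

/-- `K = C_K(P) [K, P]`. -/
theorem exists_fixed_mul [Group.IsSolvable H] {K : Subgroup H} (hK : Inv x K) {k : H}
    (hk : k ∈ K) : ∃ c ∈ K ⊓ fx x, ∃ d ∈ dk x K, k = c * d := by
  obtain ⟨n, hn, hf⟩ := lift x hxp hcop hK (dk_inv x K) hk (by simpa using mem_dk x hk 1)
  exact ⟨k * n, ⟨mul_mem hk hn.1, hf⟩, n⁻¹, inv_mem (Subgroup.mem_inf.mp hn).2, by group⟩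

theorem le_fx_sup_dk [Group.IsSolvable H] {K : Subgroup H} (hK : Inv x K) :
    K ≤ (K ⊓ fx x) ⊔ dk x K := by
  intro k hk
  obtain ⟨c, hc, d, hd, rfl⟩ := exists_fixed_mul x hxp hcop hK hk
  exact mul_mem (mem_sup_left hc) (mem_sup_right hd)

theorem dk_dk [Group.IsSolvable H] {K : Subgroup H} (hK : Inv x K) :
    dk x (dk x K) = dk x K := by
  refine le_antisymm (dk_mono x (dk_le x hK)) ?_
  refine (closure_le _).mpr ?_
  rintro _ ⟨k, hk, i, rfl⟩
  obtain ⟨c, hc, d, hd, rfl⟩ := exists_fixed_mul x hxp hcop hK hk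
  have : (c * d)⁻¹ * (x ^ i) (c * d) = d⁻¹ * (x ^ i) d := by
    rw [map_mul, pow_fix x hc.2]; group
  rw [this]
  exact mem_dk x hd i

end coprime

end CfsgLib.FixGen
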