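import Cfsg.Agent.FixGen.Basic

/-!
`C_{[H,P]}(P)` is generated by the fixed points of the `[h, P]`: the `q`-group case and the case
of a central minimal normal subgroup.
-/

set_option autoImplicit false

open scoped commutatorElement

namespace CfsgLib.FixGen

open Subgroup
open scoped IsMulCommutative

variable {H : Type*} [Group H] (x : MulAut H)

/-- the subgroup generated by an orbit -/
def orb (h : H) : Subgroup H := closure (Set.range fun i : ℕ => (x ^ i) h)

theorem mem_orb (h : H) (i : ℕ) : (x ^ i) h ∈ orb x h := subset_closure ⟨i, rfl⟩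

theorem self_mem_orb (h : H) : h ∈ orb x h := by simpa using mem_orb x h 0

theorem orb_inv (h : H) : Inv x (orb x h) := by
  refine inv_closure x ?_
  rintro _ ⟨i, rfl⟩
  show x ((x ^ i) h) ∈ _
  have := mem_orb x h (i + 1)
  rwa [pow_succ', MulAut.mul_apply] at this

theorem orb_le {K : Subgroup H} (hK : Inv x K) {h : H} (hh : h ∈ K) : orb x h ≤ K := by
  rw [orb, closure_le]
  rintro _ ⟨i, rfl⟩
  exact hK.pow x i h hh

theorem inv_of_characteristic (K : Subgroup H) [hK : K.Characteristic] : Inv x K := fun k hk => by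
  have := hK.fixed x
  rw [← this] at hk
  exact hk

theorem inv_commutator_top : Inv x ⁅(⊤ : Subgroup H), (⊤ : Subgroup H)⁆ :=
  Inv.commutator x (fun _ _ => mem_top _) (fun _ _ => mem_top _)

theorem normal_of_commutator_le {J : Subgroup H} (h : ⁅(⊤ : Subgroup H), (⊤ : Subgroup H)⁆ ≤ J) : J.Normal :=
  ⟨fun n hn g => by
    have h1 : ⁅g, n⁆ ∈ J := h (commutator_mem_commutator (mem_top _) (mem_top _))
    have h2 : g * n * g⁻¹ = ⁅g, n⁆ * n := by rw [commutatorElement_def]; group
    rw [h2]; exact mul_mem h1 hn⟩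

theorem commutatorElement_mul_central {a b z w : H} (hz : z ∈ center H) (hw : w ∈ center H) :
    ⁅a * z, b * w⁆ = ⁅a, b⁆ := by
  simp only [commutatorElement_def, mul_inv_rev]
  have hz' := mem_center_iff.mp hz
  have hw' := mem_center_iff.mp hw
  calc a * z * (b * w) * (z⁻¹ * a⁻¹) * (w⁻¹ * b⁻¹)
      = a * (z * (b * w)) * (z⁻¹ * a⁻¹) * (w⁻¹ * b⁻¹) := by group
    _ = a * ((b * w) * z) * (z⁻¹ * a⁻¹) * (w⁻¹ * b⁻¹) := by rw [hz' (b * w)]
    _ = a * b * (w * a⁻¹) * (w⁻¹ * b⁻¹) := by group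
    _ = a * b * (a⁻¹ * w) * (w⁻¹ * b⁻¹) := by rw [hw' a⁻¹]
    _ = a * b * a⁻¹ * b⁻¹ := by group

variable [Finite H] [Group.IsSolvable H] {p : ℕ} [hp : Fact p.Prime] (hxp : x ^ p = 1)
  (hcop : (Nat.card H).Coprime p)
include hxp hcop

omit [Group.IsSolvable H] in
/-- An element all whose translates agree modulo `J ⊇ H'` lies in `J`. -/
theorem mem_of_translates (htop : dk x ⊤ = ⊤) {J : Subgroup H} (hJ : ⁅(⊤ : Subgroup H), (⊤ : Subgroup H)⁆ ≤ J)
    {c : H} (hc : ∀ i : ℕ, c⁻¹ * (x ^ i) c ∈ J) : c ∈ J := by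
  haveI := normal_of_commutator_le hJ
  letI : CommGroup (H ⧸ J) :=
    { (inferInstance : Group (H ⧸ J)) with
      mul_comm := fun a b => (Subgroup.Normal.quotient_commutative_iff_commutator_le.mpr
        (show commutator H ≤ J by rw [_root_.commutator_def]; exact hJ)).is_comm.comm a b }
  have hI : Inv x (⊤ : Subgroup H) := fun _ _ => mem_top _
  set f : (⊤ : Subgroup H) →* H ⧸ J := (QuotientGroup.mk' J).comp (⊤ : Subgroup H).subtype
  have h1 : nrm x hI p f ⟨c, mem_top c⟩ = 1 := nrm_dk x hI hxp f (by rw [htop]; exact mem_top c)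
  rw [nrm_eq_pow x hI p f ⟨c, mem_top c⟩ (fun i => ((QuotientGroup.eq (s := J)).mpr (hc i)).symm)] at h1
  exact mem_of_pow_mem hcop ((QuotientGroup.eq_one_iff _).mp h1)

omit [Group.IsSolvable H] in
theorem fixed_mem (htop : dk x ⊤ = ⊤) {J : Subgroup H} (hJ : ⁅(⊤ : Subgroup H), (⊤ : Subgroup H)⁆ ≤ J) {c : H}
    (hc : c ∈ fx x) : c ∈ J :=
  mem_of_translates x hxp hcop htop hJ fun i => by simp [pow_fix x hc]

omit [Group.IsSolvable H] in
/-- If `H / N` is a `q`-group generated by the orbit of `h`, it is generated by `[h, P]`. -/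
theorem dd_sup_eq_top (htop : dk x ⊤ = ⊤) {q : ℕ} [Fact q.Prime] (N : Subgroup H) [N.Normal]
    (hN : Inv x N) (hq : IsPGroup q (H ⧸ N)) {h : H} (hgen : orb x h ⊔ N = ⊤) :
    dd x h ⊔ N = ⊤ := by
  set J : Subgroup H := ⁅(⊤ : Subgroup H), (⊤ : Subgroup H)⁆ ⊔ (N ⊔ dd x h) with hJ
  have hJinv : Inv x J :=
    (inv_commutator_top x).sup x (hN.sup x (dd_inv x h))
  have hh : h ∈ J := mem_of_translates x hxp hcop htop le_sup_left fun i =>
    mem_sup_right (mem_sup_right (mem_dd x h i))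
  have hJtop : J = ⊤ := by
    rw [eq_top_iff, ← hgen]
    exact sup_le (orb_le x hJinv hh) (le_sup_left.trans le_sup_right)
  have hmap := congrArg (Subgroup.map (QuotientGroup.mk' N)) hJtop
  rw [hJ, Subgroup.map_sup, Subgroup.map_sup, Subgroup.map_commutator,
    map_top_of_surjective _ (QuotientGroup.mk'_surjective N),
    QuotientGroup.map_mk'_self, bot_sup_eq] at hmap
  have hle : ⁅(⊤ : Subgroup (H ⧸ N)), (⊤ : Subgroup (H ⧸ N))⁆ ≤ frattini (H ⧸ N) :=
    (_root_.commutator_def (H ⧸ N)) ▸ PGroup.commutator_le_frattini hq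
  have hd : (dd x h).map (QuotientGroup.mk' N) = ⊤ :=
    frattini_nongenerating (eq_top_iff.mpr (hmap.ge.trans (sup_le (hle.trans le_sup_right) le_sup_left)))
  have := congrArg (Subgroup.comap (QuotientGroup.mk' N)) hd
  rwa [comap_map_eq, QuotientGroup.ker_mk', comap_top] at this

variable (hind : ∀ K : Subgroup H, Inv x K → K ≠ ⊤ → dk x K ⊓ fx x ≤ gen x)
include hind

omit hp in
/-- Fixed points in the derived group of a proper subgroup. -/
theorem derived_fixed [Fact p.Prime] {Z : Subgroup H} (hZ : Z ≤ center H) (hF : fx x ≤ gen x ⊔ Z)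
    {K : Subgroup H} (hK : Inv x K) (hne : K ≠ ⊤) : ⁅K, K⁆ ⊓ fx x ≤ gen x := by
  haveI : Z.Normal := ⟨fun z hz g => by
    rw [mem_center_iff.mp (hZ hz) g]; simpa [mul_assoc] using hz⟩
  set C := K ⊓ fx x
  set D := dk x K
  have hFF : ⁅C, C⁆ ≤ gen x := by
    refine Subgroup.commutator_le.mpr fun a ha b hb => ?_
    obtain ⟨l, hl, z, hz, rfl⟩ := mem_sup_of_normal_right.mp (hF ha.2)
    obtain ⟨m, hm, w, hw, rfl⟩ := mem_sup_of_normal_right.mp (hF hb.2)
    rw [commutatorElement_mul_central (hZ hz) (hZ hw), commutatorElement_def]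
    exact mul_mem (mul_mem (mul_mem hl hm) (inv_mem hl)) (inv_mem hm)
  have hnorm : ∀ k ∈ K, ∀ d ∈ D, k * d * k⁻¹ ∈ D := fun k hk d hd =>
    (mem_normalizer_iff.mp (le_normalizer_dk x K hk) d).mp hd
  have hKK : ⁅K, K⁆ ≤ ⁅C, C⁆ ⊔ D := by
    refine Subgroup.commutator_le.mpr fun a ha b hb => ?_
    obtain ⟨c, hc, d, hd, rfl⟩ := exists_fixed_mul x hxp hcop hK ha
    obtain ⟨c', hc', d', hd', rfl⟩ := exists_fixed_mul x hxp hcop hK hb
    have : ⁅c * d, c' * d'⁆ = ⁅c, c'⁆ *
        ((c' * c) * ((c'⁻¹ * d * c'⁻¹⁻¹) * d' * d⁻¹) * (c' * c)⁻¹ * (c' * d'⁻¹ * c'⁻¹)) := by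
      simp only [commutatorElement_def]; group
    rw [this]
    refine mul_mem (mem_sup_left (commutator_mem_commutator hc hc')) (mem_sup_right ?_)
    exact mul_mem (hnorm _ (mul_mem hc'.1 hc.1) _
      (mul_mem (mul_mem (hnorm _ (inv_mem hc'.1) _ hd) hd') (inv_mem hd)))
      (hnorm _ hc'.1 _ (inv_mem hd'))
  rintro v ⟨hv, hvf⟩
  have hCC : ⁅C, C⁆ ≤ normalizer (D : Set H) :=
    ((Subgroup.commutator_le_self C).trans inf_le_left).trans (le_normalizer_dk x K)
  have hv' := hKK hv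
  rw [← SetLike.mem_coe, coe_mul_of_left_le_normalizer_right _ _ hCC] at hv'
  obtain ⟨u, hu, d, hd, rfl⟩ := hv'
  have hug := hFF hu
  have hdf : d ∈ fx x := by
    have := mul_mem (inv_mem (gen_le_fx x hug)) hvf
    simpa using this
  exact mul_mem hug (hind K hK hne ⟨hd, hdf⟩)

variable (hquot : ∀ N : Subgroup H, N.Normal → Inv x N → N ≠ ⊥ → fx x ≤ gen x ⊔ N)
include hquot

/-- The case of a `q`-group. -/
theorem pgroup_case (htop : dk x ⊤ = ⊤) (hp2 : p ≠ 2) {q : ℕ} [Fact q.Prime] (hq : IsPGroup q H) :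
    fx x ≤ gen x := by
  by_cases hgen : ∃ h, orb x h = ⊤
  · obtain ⟨h, hh⟩ := hgen
    have := dd_sup_eq_top x hxp hcop htop (N := (⊥ : Subgroup H)) (fun k hk => by
      rw [mem_bot] at hk ⊢; simp [hk]) (hq.to_quotient _) (by rw [hh, sup_bot_eq])
    rw [sup_bot_eq] at this
    exact fun c hc => mem_gen x (this ▸ mem_top c) hc
  push Not at hgen
  by_cases hab : ⁅(⊤ : Subgroup H), (⊤ : Subgroup H)⁆ = ⊥
  · intro c hc
    have := fixed_mem x hxp hcop htop (J := ⁅(⊤ : Subgroup H), (⊤ : Subgroup H)⁆) le_rfl hc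
    rw [hab, mem_bot] at this
    exact this ▸ one_mem _
  haveI := hq.isNilpotent
  classical
  obtain ⟨n₀, hn₀⟩ := Subgroup.nilpotent_iff_lowerCentralSeries.mp (inferInstance : Group.IsNilpotent H)
  obtain ⟨n, hn0, hn1⟩ : ∃ n, (⊤ : Subgroup H).lowerCentralSeries (n + 1) ≠ ⊥ ∧
      (⊤ : Subgroup H).lowerCentralSeries (n + 2) = ⊥ := by
    have hex : ∃ n, (⊤ : Subgroup H).lowerCentralSeries n = ⊥ := ⟨n₀, hn₀⟩
    have h2 : ∀ m, m ≤ 1 → (⊤ : Subgroup H).lowerCentralSeries m ≠ ⊥ := by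
      intro m hm h
      exact hab (le_bot_iff.mp (le_trans (le_of_eq (Subgroup.lowerCentralSeries_succ (⊤ : Subgroup H) 0).symm)
        (h ▸ Subgroup.lowerCentralSeries_antitone _ hm)))
    have hm : 2 ≤ Nat.find hex := by
      by_contra hlt
      exact h2 _ (by omega) (Nat.find_spec hex)
    refine ⟨Nat.find hex - 2, Nat.find_min hex (by omega), ?_⟩
    rw [Nat.sub_add_cancel hm]
    exact Nat.find_spec hex
  set M := (⊤ : Subgroup H).lowerCentralSeries (n + 1) with hM
  have hMz : M ≤ center H := by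
    intro m hm
    rw [mem_center_iff]
    intro g
    have h1 : ⁅m, g⁆ ∈ ((⊤ : Subgroup H).lowerCentralSeries (n + 2)) :=
      commutator_mem_commutator hm (mem_top g)
    rw [hn1, mem_bot, commutatorElement_eq_one_iff_mul_comm] at h1
    exact h1.symm
  haveI hMc : M.Characteristic := Subgroup.lowerCentralSeries_characteristic _ _
  have hMi : Inv x M := inv_of_characteristic x M
  have hF := hquot M inferInstance hMi hn0
  set f : M →* center H := Subgroup.inclusion hMz with hf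
  set N := nrm x hMi p f with hNdef
  -- the norm of an element of `⁅K, K⁆`, `K` proper, is in `gen`
  have hKN : ∀ K : Subgroup H, Inv x K → K ≠ ⊤ → ∀ (m : M), (m : H) ∈ ⁅K, K⁆ →
      ((N m : center H) : H) ∈ gen x := by
    intro K hK hKne m hm
    refine derived_fixed x hxp hcop hind hMz hF hK hKne ⟨?_, ?_⟩
    · show N m ∈ ⁅K, K⁆.subgroupOf (center H)
      rw [hNdef, nrm_apply]
      exact prod_mem fun i _ => (hK.commutator x hK).pow x i _ hm
    · let g : center H →* center H := ((x : H →* H).comp (center H).subtype).codRestrict (center H)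
        fun z => inv_of_characteristic x (center H) z z.2
      show x ((N m : center H) : H) = ((N m : center H) : H)
      have h1 : g (N m) = N ⟨x m, hMi _ m.2⟩ := by
        rw [hNdef, nrm_apply, nrm_apply, map_prod]
        refine Finset.prod_congr rfl fun i _ => Subtype.ext ?_
        show x ((x ^ i) (m : H)) = (x ^ i) (x (m : H))
        rw [← MulAut.mul_apply, ← MulAut.mul_apply, ← pow_succ', ← pow_succ]
      rw [hNdef, nrm_map x hMi hxp f m] at h1
      exact congrArg Subtype.val h1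
  -- it suffices to treat the norms of the generators
  suffices hgens : ∀ a ∈ (⊤ : Subgroup H).lowerCentralSeries n, ∀ (b : H) (hab : ⁅a, b⁆ ∈ M),
      ((N ⟨⁅a, b⁆, hab⟩ : center H) : H) ∈ gen x by
    have hle : M ≤ ((gen x).comap ((center H).subtype.comp N)).map M.subtype := by
      refine le_trans (le_of_eq (Subgroup.lowerCentralSeries_succ _ n)) (Subgroup.commutator_le.mpr ?_)
      intro a ha b _
      have hab : ⁅a, b⁆ ∈ M := by
        rw [hM, Subgroup.lowerCentralSeries_succ]; exact commutator_mem_commutator ha (mem_top b)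
      exact ⟨⟨_, hab⟩, hgens a ha b hab, rfl⟩
    intro c hc
    obtain ⟨l, hl, m, hm, rfl⟩ := mem_sup_of_normal_right.mp (hF hc)
    refine mul_mem hl ?_
    have hmf : m ∈ fx x := by
      have := mul_mem (inv_mem (gen_le_fx x hl)) hc
      simpa using this
    obtain ⟨⟨m', hm'⟩, hNm, rfl⟩ := hle hm
    have hpow : N ⟨m', hm'⟩ = f ⟨m', hm'⟩ ^ p :=
      nrm_eq_pow x hMi p f _ fun i => congrArg f (Subtype.ext (pow_fix x hmf i))
    have h1 : ((N ⟨m', hm'⟩ : center H) : H) ∈ gen x := hNm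
    rw [hpow, SubgroupClass.coe_pow] at h1
    exact mem_of_pow_mem hcop h1
  intro a ha b hab
  rcases Nat.eq_zero_or_pos n with hn | hn
  swap
  · have ha' : a ∈ ⁅(⊤ : Subgroup H), (⊤ : Subgroup H)⁆ := by
      have := Subgroup.lowerCentralSeries_antitone _ hn ha
      exact this
    set K := orb x b ⊔ ⁅(⊤ : Subgroup H), (⊤ : Subgroup H)⁆ with hK
    have hKne : K ≠ ⊤ := by
      intro h
      apply hgen b
      refine frattini_nongenerating (eq_top_iff.mpr (h ▸ sup_le_sup le_rfl ?_))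
      exact (_root_.commutator_def H) ▸ PGroup.commutator_le_frattini hq
    exact hKN K ((orb_inv x b).sup x (inv_commutator_top x)) hKne _
      (commutator_mem_commutator (mem_sup_right ha') (mem_sup_left (self_mem_orb x b)))
  -- class two
  subst hn
  have hmemM : ∀ g k : H, ⁅g, k⁆ ∈ M := fun g k => by
    rw [hM, Subgroup.lowerCentralSeries_succ]
    exact commutator_mem_commutator (mem_top g) (mem_top k)
  set β : H → H → center H := fun g k => N ⟨⁅g, k⁆, hmemM g k⟩ with hβ
  have hcent : ∀ g k c : H, c * ⁅g, k⁆ = ⁅g, k⁆ * c := fun g k c =>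
    mem_center_iff.mp (hMz (hmemM g k)) c
  have hl : ∀ g g' k, β (g * g') k = β g k * β g' k := fun g g' k => by
    simp only [hβ, ← map_mul]
    congr 1
    apply Subtype.ext
    show ⁅g * g', k⁆ = ⁅g, k⁆ * ⁅g', k⁆
    rw [show ⁅g * g', k⁆ = g * ⁅g', k⁆ * g⁻¹ * ⁅g, k⁆ by simp only [commutatorElement_def]; group,
      hcent g' k g, mul_inv_cancel_right, hcent g k ⁅g', k⁆]
  have hswap : ∀ g k, β k g = (β g k)⁻¹ := fun g k => by
    simp only [hβ, ← map_inv]
    congr 1
    exact Subtype.ext (commutatorElement_inv g k).symm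
  have hr : ∀ g k k', β g (k * k') = β g k * β g k' := fun g k k' => by
    rw [hswap (k * k') g, hl, mul_inv_rev, ← hswap, ← hswap, mul_comm]
  have hx : ∀ g k, β (x g) (x k) = β g k := fun g k => by
    simp only [hβ]
    have := nrm_map x hMi hxp f ⟨⁅g, k⁆, hmemM g k⟩ (hMi _ (hmemM g k))
    rw [hNdef, ← this]
    congr 1
    exact Subtype.ext (map_commutatorElement x g k).symm
  set G := (gen x).subgroupOf (center H) with hG
  have hdiag : ∀ h, β h (x h) ∈ G := fun h =>
    hKN (orb x h) (orb_inv x h) (hgen h) _ (commutator_mem_commutator (self_mem_orb x h)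
      (orb_inv x h h (self_mem_orb x h)))
  let S : Subgroup H :=
    { carrier := {g | ∀ k, β g k ∈ G}
      one_mem' := fun k => by
        have h1 := hl 1 1 k
        rw [one_mul, left_eq_mul] at h1
        rw [h1]; exact one_mem _
      mul_mem' := fun hg hg' k => by rw [hl]; exact mul_mem (hg k) (hg' k)
      inv_mem' := fun {g} hg k => by
        have h1 := hl g g⁻¹ k
        have h0 := hl 1 1 k
        rw [one_mul, left_eq_mul] at h0
        rw [mul_inv_cancel, h0] at h1
        rw [eq_inv_of_mul_eq_one_right h1.symm]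
        exact inv_mem (hg k) }
  have hS2 : ∀ h, h⁻¹ * (x ^ 2) h ∈ S := by
    intro h k'
    obtain ⟨k, rfl⟩ := x.surjective k'
    have e2 : β ((x ^ 2) h) (x k) = (β k (x h))⁻¹ := by
      rw [pow_two, MulAut.mul_apply, hx, hswap]
    have e1 : β h⁻¹ (x k) = (β h (x k))⁻¹ := by
      have h1 := hl h h⁻¹ (x k)
      have h0 := hl 1 1 (x k)
      rw [one_mul, left_eq_mul] at h0
      rw [mul_inv_cancel, h0] at h1
      exact eq_inv_of_mul_eq_one_right h1.symm
    rw [hl, e1, e2, ← mul_inv]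
    refine inv_mem ?_
    have h2 := hdiag (h * k)
    rw [map_mul, hl, hr, hr] at h2
    have h3 := mul_mem (inv_mem (mul_mem (hdiag h) (hdiag k))) h2
    convert h3 using 1
    rw [mul_inv]
    calc β h (x k) * β k (x h)
        = ((β h (x h))⁻¹ * β h (x h)) * ((β k (x k))⁻¹ * β k (x k)) * (β h (x k) * β k (x h)) := by
          simp
      _ = _ := by ac_rfl
  have hS : ∀ h, ∀ i : ℕ, h⁻¹ * (x ^ (2 * i)) h ∈ S := by
    intro h i
    induction i with
    | zero => simp
    | succ i ih =>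
      have : h⁻¹ * (x ^ (2 * (i + 1))) h
          = (h⁻¹ * (x ^ (2 * i)) h) * (((x ^ (2 * i)) h)⁻¹ * (x ^ 2) ((x ^ (2 * i)) h)) := by
        rw [← MulAut.mul_apply, ← pow_add, show 2 + 2 * i = 2 * (i + 1) by ring]; group
      rw [this]
      exact mul_mem ih (hS2 _)
  have hStop : S = ⊤ := by
    rw [eq_top_iff, ← htop, dk, closure_le]
    rintro _ ⟨h, -, i, rfl⟩
    obtain ⟨m, hm⟩ := hp.out.odd_of_ne_two hp2
    have := hS h (i * (m + 1))
    rwa [show 2 * (i * (m + 1)) = p * i + i by rw [hm]; ring, pow_add, pow_mul, hxp, one_pow,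
      one_mul] at this
  exact (hStop ▸ mem_top a : a ∈ S) b

omit hquot in
/-- The case of a central minimal normal subgroup, `H` not a `q`-group. -/
theorem central_case (htop : dk x ⊤ = ⊤) {q : ℕ} [hqp : Fact q.Prime] (hq : ¬ IsPGroup q H)
    {V : Subgroup H} (hV : V ≤ center H) (hVq : ∀ v ∈ V, v ^ q = 1) (hF : fx x ≤ gen x ⊔ V) :
    fx x ≤ gen x := by
  haveI : V.Normal := ⟨fun z hz g => by
    rw [mem_center_iff.mp (hV hz) g]; simpa [mul_assoc] using hz⟩
  have hfin : IsOfFinOrder x := isOfFinOrder_iff_pow_eq_one.mpr ⟨p, hp.out.pos, hxp⟩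
  haveI : Finite (zpowers x) := hfin.finite_zpowers
  obtain ⟨Q, hQ⟩ := Coprime.exists_invariant_sylow_action (p := q) (zpowers x).subtype
    (by rw [Nat.card_zpowers]
        exact Nat.Coprime.coprime_dvd_left (orderOf_dvd_of_pow_eq_one hxp) hcop.symm)
    (Or.inr inferInstance)
  have hQi : Inv x (Q : Subgroup H) := fun k hk => hQ ⟨x, mem_zpowers x⟩ k hk
  have hQne : (Q : Subgroup H) ≠ ⊤ := fun h => hq (by
    have := Q.isPGroup'
    rw [h] at this
    exact this.of_equiv Subgroup.topEquiv)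
  have hVQ : V ≤ Q := by
    have hVp : IsPGroup q V := fun v => ⟨1, Subtype.ext (by simpa using hVq v v.2)⟩
    have := Q.isPGroup'.to_sup_of_normal_right hVp
    exact sup_eq_left.mp (Q.is_maximal' this le_sup_left)
  intro c hc
  obtain ⟨l, hl, v, hv, rfl⟩ := mem_sup_of_normal_right.mp (hF hc)
  refine mul_mem hl ?_
  have hvf : v ∈ fx x := by
    have := mul_mem (inv_mem (gen_le_fx x hl)) hc
    simpa using this
  refine derived_fixed x hxp hcop hind hV hF hQi hQne ⟨?_, hvf⟩
  -- transfer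
  have hvc : v ∈ commutator H := by
    rw [_root_.commutator_def]; exact fixed_mem x hxp hcop htop (J := ⁅(⊤ : Subgroup H), (⊤ : Subgroup H)⁆) le_rfl hvf
  set φ : (Q : Subgroup H) →* Abelianization (Q : Subgroup H) := Abelianization.of
  have key : ∀ (k : ℕ) (g : H), g⁻¹ * v ^ k * g ∈ (Q : Subgroup H) → g⁻¹ * v ^ k * g = v ^ k :=
    fun k g _ => by rw [mul_assoc, ← mem_center_iff.mp (pow_mem (hV hv) k) g, inv_mul_cancel_left]
  have h1 : MonoidHom.transfer φ v = 1 :=
    MonoidHom.mem_ker.mp (Abelianization.commutator_subset_ker _ hvc)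
  rw [MonoidHom.transfer_eq_pow φ v key] at h1
  have h2 : v ^ (Q : Subgroup H).index ∈ ⁅(Q : Subgroup H), (Q : Subgroup H)⁆ := by
    rw [← Subgroup.map_subtype_commutator]
    refine ⟨⟨_, MonoidHom.transfer_eq_pow_aux v key⟩, ?_, rfl⟩
    rw [← Abelianization.ker_of]
    exact h1
  have hcopv : (orderOf v).Coprime (Q : Subgroup H).index :=
    Nat.Coprime.coprime_dvd_left (orderOf_dvd_of_pow_eq_one (hVq v hv))
      (hqp.out.coprime_iff_not_dvd.mpr Q.not_dvd_index)
  obtain ⟨m, hm⟩ := exists_pow_eq_self_of_coprime hcopv.symm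
  exact hm ▸ pow_mem h2 m

end CfsgLib.FixGen
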