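import Cfsg.Agent.FixGen.Noncentral

/-!
`C_{[H,P]}(P)` is generated by the `C_{[h,P]}(P)`, for `P` of odd prime order acting coprimely on
the solvable group `H`.
-/

set_option autoImplicit false

open scoped commutatorElement

namespace CfsgLib.FixGen

open Subgroup
open scoped IsMulCommutative

universe u

variable {H : Type u} [Group H] (x : MulAut H)

theorem map_gen_resAut_le [Finite H] {K : Subgroup H} (hK : Inv x K) :
    (gen (resAut x hK)).map K.subtype ≤ gen x := by
  rw [map_le_iff_le_comap]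
  refine iSup_le fun h => ?_
  rintro d ⟨hd, hdf⟩
  show (d : H) ∈ gen x
  refine mem_gen x (h := (h : H)) ?_ (congrArg Subtype.val hdf)
  suffices hle : dd (resAut x hK) h ≤ (dd x (h : H)).comap K.subtype from hle hd
  refine (closure_le _).mpr ?_
  rintro _ ⟨i, rfl⟩
  show ((h⁻¹ * (resAut x hK ^ i) h : K) : H) ∈ dd x (h : H)
  rw [Subgroup.coe_mul, Subgroup.coe_inv, resAut_pow_coe]
  exact mem_dd x _ i

/-- Generation, with `DK ⊤` written out. -/
theorem dk_inf_fx_le_gen (n : ℕ) : ∀ (H : Type u) [Group H] [Finite H] [Group.IsSolvable H]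
    (x : MulAut H) (p : ℕ) [Fact p.Prime], p ≠ 2 → x ^ p = 1 → (Nat.card H).Coprime p →
    Nat.card H ≤ n → dk x ⊤ ⊓ fx x ≤ gen x := by
  induction n with
  | zero =>
    intro H _ _ _ x p _ _ _ _ hn
    exact absurd hn (by have := Nat.card_pos (α := H); omega)
  | succ n ih =>
    intro H _ _ _ x p hp hp2 hxp hcop hn
    have hlt : ∀ m : ℕ, m < Nat.card H → m ≤ n := fun m hm => by omega
    -- proper invariant subgroups
    have hind : ∀ K : Subgroup H, Inv x K → K ≠ ⊤ → dk x K ⊓ fx x ≤ gen x := by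
      intro K hK hne
      have hcK : (Nat.card K).Coprime p := hcop.coprime_dvd_left (card_subgroup_dvd_card K)
      have hKlt : Nat.card K < Nat.card H :=
        lt_of_le_of_ne (Nat.le_of_dvd Nat.card_pos (card_subgroup_dvd_card K))
          fun h => hne (eq_top_of_card_eq K h)
      have hpow : resAut x hK ^ p = 1 := MulEquiv.ext fun k => Subtype.ext (by
        rw [resAut_pow_coe, hxp]; rfl)
      have h1 := ih K (resAut x hK) p hp2 hpow hcK (hlt _ hKlt)
      rintro c ⟨hc, hcf⟩
      have hcK' : c ∈ K := dk_le x hK hc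
      have h2 : (⟨c, hcK'⟩ : K) ∈ dk (resAut x hK) ⊤ := by
        suffices hle : dk x K ≤ (dk (resAut x hK) ⊤).map K.subtype by
          obtain ⟨d, hd, hdc⟩ := hle hc
          exact (show d = ⟨c, hcK'⟩ from Subtype.ext hdc) ▸ hd
        refine (closure_le _).mpr ?_
        rintro _ ⟨k, hk, i, rfl⟩
        refine ⟨(⟨k, hk⟩ : K)⁻¹ * (resAut x hK ^ i) ⟨k, hk⟩, mem_dk _ (mem_top _) i, ?_⟩
        show (((⟨k, hk⟩ : K)⁻¹ * (resAut x hK ^ i) ⟨k, hk⟩ : K) : H) = k⁻¹ * (x ^ i) k
        rw [Subgroup.coe_mul, Subgroup.coe_inv, resAut_pow_coe]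
      exact map_gen_resAut_le x hK ⟨_, h1 ⟨h2, Subtype.ext hcf⟩, rfl⟩
    -- reduction to `[H, P] = H`
    by_cases htop : dk x ⊤ = ⊤
    swap
    · have := hind (dk x ⊤) (dk_inv x ⊤) htop
      rwa [dk_dk x hxp hcop (fun _ _ => mem_top _)] at this
    refine inf_le_right.trans ?_
    -- quotients
    have hquot : ∀ N : Subgroup H, N.Normal → Inv x N → N ≠ ⊥ → fx x ≤ gen x ⊔ N := by
      intro N hN hNi hNne
      have hNmap : N.map (x : H →* H) = N := eq_of_le_of_card_ge ((inv_iff_map_le x).mp hNi)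
        (by rw [card_map_of_injective (x : MulAut H).injective])
      set xb : MulAut (H ⧸ N) := QuotientGroup.congr N N x hNmap with hxb
      have hxb1 : ∀ g : H, xb (g : H ⧸ N) = ((x g : H) : H ⧸ N) := fun g =>
        QuotientGroup.congr_mk N N x hNmap g
      have hxbi : ∀ (i : ℕ) (g : H), (xb ^ i) (g : H ⧸ N) = (((x ^ i) g : H) : H ⧸ N) := by
        intro i g
        induction i with
        | zero => rfl
        | succ i ih => rw [pow_succ', MulAut.mul_apply, ih, hxb1, pow_succ', MulAut.mul_apply]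
      have hpow : xb ^ p = 1 := MulEquiv.ext fun g => by
        obtain ⟨g, rfl⟩ := QuotientGroup.mk_surjective g
        rw [hxbi, hxp]; rfl
      have hQlt : Nat.card (H ⧸ N) < Nat.card H := by
        rw [card_eq_card_quotient_mul_card_subgroup N]
        exact lt_mul_of_one_lt_right Nat.card_pos ((one_lt_card_iff_ne_bot N).mpr hNne)
      have h1 := ih (H ⧸ N) xb p hp2 hpow
        (hcop.coprime_dvd_left (card_quotient_dvd_card N)) (hlt _ hQlt)
      intro c hc
      have hdk : (c : H ⧸ N) ∈ dk xb ⊤ := by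
        suffices hle : dk x ⊤ ≤ (dk xb ⊤).comap (QuotientGroup.mk' N) from hle (show c ∈ dk x ⊤ by rw [htop]; exact mem_top c)
        refine (closure_le _).mpr ?_
        rintro _ ⟨k, -, i, rfl⟩
        show ((k⁻¹ * (x ^ i) k : H) : H ⧸ N) ∈ dk xb ⊤
        rw [QuotientGroup.mk_mul, QuotientGroup.mk_inv, ← hxbi]
        exact mem_dk _ (mem_top _) i
      have hgen : gen xb ≤ (gen x).map (QuotientGroup.mk' N) := by
        refine iSup_le fun hb => ?_
        obtain ⟨h, rfl⟩ := QuotientGroup.mk_surjective hb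
        rintro db ⟨hd, hdf⟩
        have hle : dd xb (h : H ⧸ N) ≤ (dd x h).map (QuotientGroup.mk' N) := by
          refine (closure_le _).mpr ?_
          rintro _ ⟨i, rfl⟩
          exact ⟨_, mem_dd x h i, by
            rw [QuotientGroup.mk'_apply, QuotientGroup.mk_mul, QuotientGroup.mk_inv, hxbi]⟩
        obtain ⟨d, hd', rfl⟩ := hle hd
        have hdN : d⁻¹ * x d ∈ N := QuotientGroup.eq.mp ((hxb1 d).symm.trans hdf).symm
        obtain ⟨m, hm, hfix⟩ := lift x hxp hcop (dd_inv x h) hNi hd' hdN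
        refine ⟨d * m, mem_gen x (mul_mem hd' (Subgroup.mem_inf.mp hm).1) hfix, ?_⟩
        rw [map_mul, (QuotientGroup.eq_one_iff m).mpr (Subgroup.mem_inf.mp hm).2
          |> fun e => (show QuotientGroup.mk' N m = 1 from e), mul_one]
      obtain ⟨l, hl, hlc⟩ := hgen (h1 ⟨hdk, by
        show xb (c : H ⧸ N) = (c : H ⧸ N)
        rw [hxb1, (mem_fx x).mp hc]⟩)
      have : l⁻¹ * c ∈ N := QuotientGroup.eq.mp hlc
      exact (mul_inv_cancel_left l c) ▸ mul_mem (mem_sup_left hl) (mem_sup_right this)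
    -- minimal normal invariant subgroup
    by_cases hH : (⊤ : Subgroup H) = ⊥
    · intro c _
      have : c = 1 := mem_bot.mp (hH ▸ mem_top c)
      exact this ▸ one_mem _
    obtain ⟨V, ⟨hVn, hVi, hVne⟩, hVmin⟩ := (Set.toFinite
      {N : Subgroup H | N.Normal ∧ Inv x N ∧ N ≠ ⊥}).exists_minimal
      ⟨⊤, inferInstance, fun _ _ => mem_top _, hH⟩
    have hmin : ∀ N : Subgroup H, N.Normal → Inv x N → N ≤ V → N = ⊥ ∨ N = V := by
      intro N hN hNi hNV
      by_cases h : N = ⊥
      · exact Or.inl h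
      · exact Or.inr (le_antisymm hNV (hVmin ⟨hN, hNi, h⟩ hNV))
    have hcomm : ⁅V, V⁆ = ⊥ := by
      rcases hmin ⁅V, V⁆ inferInstance (hVi.commutator x hVi) (Subgroup.commutator_le_self V)
        with h | h
      · exact h
      · exact absurd h (Coprime.commutator_self_lt inferInstance hVne).ne
    haveI : IsMulCommutative V := ⟨⟨fun a b => Subtype.ext (by
      have h := commutator_mem_commutator a.2 b.2
      rw [hcomm, mem_bot, commutatorElement_eq_one_iff_mul_comm] at h
      exact h)⟩⟩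
    obtain ⟨q, hq, hqd⟩ := Nat.exists_prime_and_dvd
      (((one_lt_card_iff_ne_bot V).mpr hVne).ne' : Nat.card V ≠ 1)
    haveI := Fact.mk hq
    have hVq : ∀ v ∈ V, v ^ q = 1 := by
      set K : Subgroup H :=
        { carrier := {v | v ∈ V ∧ v ^ q = 1}
          one_mem' := ⟨one_mem V, one_pow q⟩
          mul_mem' := fun {a b} ha hb => ⟨mul_mem ha.1 hb.1, by
            have hab : Commute a b :=
              congrArg Subtype.val (mul_comm (⟨a, ha.1⟩ : V) ⟨b, hb.1⟩)
            rw [hab.mul_pow, ha.2, hb.2, one_mul]⟩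
          inv_mem' := fun ha => ⟨inv_mem ha.1, by rw [inv_pow, ha.2, inv_one]⟩ } with hK
      have hKn : K.Normal := ⟨fun v hv g => ⟨hVn.conj_mem v hv.1 g, by
        rw [conj_pow, hv.2, mul_one, mul_inv_cancel]⟩⟩
      rcases hmin K hKn (fun v hv => ⟨hVi v hv.1, by rw [← map_pow, hv.2, map_one]⟩)
        (fun v hv => hv.1) with h | h
      · exfalso
        obtain ⟨g, hg⟩ := exists_prime_orderOf_dvd_card' q hqd
        have hgK : (g : H) ∈ K := ⟨g.2, by
          rw [← SubgroupClass.coe_pow, ← hg, pow_orderOf_eq_one]; rfl⟩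
        rw [h, mem_bot, OneMemClass.coe_eq_one] at hgK
        rw [hgK, orderOf_one] at hg
        exact hq.ne_one hg.symm
      · intro v hv
        exact (show v ∈ K from h.symm ▸ hv).2
    by_cases hpq : IsPGroup q H
    · exact pgroup_case x hxp hcop hind hquot htop hp2 hpq
    by_cases hfix : ∀ v ∈ V, x v = v
    · -- `V` is central
      have hcen : V ≤ center H := by
        intro v hv
        rw [mem_center_iff]
        intro g
        suffices hle : dk x ⊤ ≤ centralizer ({v} : Set H) by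
          exact (mem_centralizer_iff.mp (hle (show g ∈ dk x ⊤ by rw [htop]; exact mem_top g)) v rfl).symm
        refine (closure_le _).mpr ?_
        rintro _ ⟨k, -, i, rfl⟩
        rw [SetLike.mem_coe, mem_centralizer_iff]
        rintro w rfl
        have hfi : ∀ u ∈ V, (x ^ i) u = u := fun u hu => pow_fix x (hfix u hu) i
        -- `k w k⁻¹` is fixed
        have h2 : (x ^ i) k * w * ((x ^ i) k)⁻¹ = k * w * k⁻¹ := by
          have := hfi (k * w * k⁻¹) (hVn.conj_mem w hv k)
          rwa [map_mul, map_mul, map_inv, hfi w hv] at this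
        calc w * (k⁻¹ * (x ^ i) k) = k⁻¹ * (k * w * k⁻¹) * (x ^ i) k := by group
          _ = k⁻¹ * ((x ^ i) k * w * ((x ^ i) k)⁻¹) * (x ^ i) k := by rw [h2]
          _ = k⁻¹ * (x ^ i) k * w := by group
      exact central_case x hxp hcop hind htop hpq hcen hVq (hquot V hVn hVi hVne)
    push Not at hfix
    obtain ⟨v₀, hv₀, hv₀f⟩ := hfix
    exact noncentral_case x hxp hcop hp2 htop hind hquot hVi hVne hmin hVq hpq hv₀ hv₀f

end CfsgLib.FixGen
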