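import Cfsg.Agent.FixGen.Split
import Cfsg.Agent.FixGen.Central

/-!
`C_{[H,P]}(P)` is generated by the fixed points of the `[h, P]`: the case of a minimal normal
subgroup on which `P` acts non-trivially.
-/

set_option autoImplicit false

open scoped commutatorElement

namespace CfsgLib.FixGen

open Subgroup
open scoped IsMulCommutative

variable {H : Type*} [Group H] [Finite H] [Group.IsSolvable H] (x : MulAut H)
  {p : ℕ} [hp : Fact p.Prime] (hxp : x ^ p = 1) (hcop : (Nat.card H).Coprime p)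
include hxp hcop

omit [Group.IsSolvable H] in
/-- the norm of a fixed element of `[A, P]`, `A` abelian -/
theorem eq_one_of_fixed_dk_abelian {A : Subgroup H} [IsMulCommutative A] (hA : Inv x A) {c : H}
    (hc : c ∈ dk x A) (hf : c ∈ fx x) : c = 1 := by
  have h1 := nrm_dk x hA hxp (MonoidHom.id A) hc
  rw [nrm_eq_pow x hA p (MonoidHom.id A) ⟨c, dk_le x hA hc⟩
    (fun i => Subtype.ext (pow_fix x hf i))] at h1
  exact eq_one_of_pow hcop (by simpa using congrArg Subtype.val h1)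

omit [Group.IsSolvable H] in
/-- the centraliser of an invariant subgroup is invariant -/
theorem inv_centralizer {V : Subgroup H} (hV : Inv x V) : Inv x (centralizer (V : Set H)) := by
  intro z hz
  rw [mem_centralizer_iff] at hz ⊢
  intro v hv
  have hv' : (x ^ (p - 1)) v ∈ V := hV.pow x _ v hv
  have he : x ((x ^ (p - 1)) v) = v := by
    rw [← MulAut.mul_apply, ← pow_succ', Nat.sub_add_cancel hp.out.one_le, hxp, MulAut.one_apply]
  have := congrArg x (hz _ hv')
  rwa [map_mul, map_mul, he] at this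

theorem noncentral_case (hp2 : p ≠ 2) (htop : dk x ⊤ = ⊤)
    (hind : ∀ K : Subgroup H, Inv x K → K ≠ ⊤ → dk x K ⊓ fx x ≤ gen x)
    (hquot : ∀ N : Subgroup H, N.Normal → Inv x N → N ≠ ⊥ → fx x ≤ gen x ⊔ N)
    {V : Subgroup H} [V.Normal] [IsMulCommutative V] (hV : Inv x V) (hVne : V ≠ ⊥)
    (hmin : ∀ N : Subgroup H, N.Normal → Inv x N → N ≤ V → N = ⊥ ∨ N = V)
    {q : ℕ} [hqp : Fact q.Prime] (hVq : ∀ v ∈ V, v ^ q = 1) (hnq : ¬ IsPGroup q H)
    {v₀ : H} (hv₀ : v₀ ∈ V) (hv₀f : x v₀ ≠ v₀) : fx x ≤ gen x := by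
  have hVc : ∀ a ∈ V, ∀ b ∈ V, a * b = b * a := fun a ha b hb =>
    congrArg Subtype.val (mul_comm (⟨a, ha⟩ : V) ⟨b, hb⟩)
  have hVn : ∀ (g : H), ∀ v ∈ V, g * v * g⁻¹ ∈ V := fun g v hv =>
    (inferInstance : V.Normal).conj_mem v hv g
  by_contra hcon
  -- a bad fixed element of `V`
  obtain ⟨c₀, hc₀V, hc₀f, hc₀g⟩ : ∃ c, c ∈ V ∧ c ∈ fx x ∧ c ∉ gen x := by
    by_contra h
    push Not at h
    apply hcon
    intro c hc
    obtain ⟨l, hl, v, hv, rfl⟩ := mem_sup_of_normal_right.mp (hquot V inferInstance hV hVne hc)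
    refine mul_mem hl (h v hv ?_)
    have := mul_mem (inv_mem (gen_le_fx x hl)) hc
    simpa using this
  set U := gen x ⊓ V with hU
  set D := dk x V with hD
  set Y := U ⊔ D with hY
  have hDV : D ≤ V := dk_le x hV
  have hYV : Y ≤ V := sup_le inf_le_right hDV
  have hDf : ∀ d ∈ D, d ∈ fx x → d = 1 := fun d hd hf =>
    eq_one_of_fixed_dk_abelian x hxp hcop hV hd hf
  have hDne : D ≠ ⊥ := by
    intro h
    have h1 : v₀⁻¹ * (x ^ 1) v₀ ∈ D := mem_dk x hv₀ 1
    rw [h, mem_bot, inv_mul_eq_one, pow_one] at h1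
    exact hv₀f h1.symm
  have hYneV : Y ≠ V := by
    intro h
    have hUD : U ≤ normalizer (D : Set H) :=
      (inf_le_right : U ≤ V).trans (le_normalizer_dk x V)
    have hc : c₀ ∈ Y := h ▸ hc₀V
    rw [hY, ← SetLike.mem_coe, coe_mul_of_left_le_normalizer_right _ _ hUD] at hc
    obtain ⟨u, hu, d, hd, hud⟩ := hc
    have hd1 : d = 1 := hDf d hd (by
      have := mul_mem (inv_mem (gen_le_fx x hu.1)) (show u * d ∈ fx x by rw [show u * d = c₀ from hud]; exact hc₀f)
      simpa using this)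
    apply hc₀g
    rw [← hud]
    show u * d ∈ gen x
    rw [hd1, mul_one]
    exact hu.1
  have hYinv : Inv x Y := by
    refine Inv.sup x (fun u hu => ?_) (dk_inv x V)
    rw [(mem_fx x).mp (gen_le_fx x hu.1)]
    exact hu
  have hFY : ∀ c ∈ fx x, ∀ y ∈ Y, c * y * c⁻¹ ∈ Y := by
    intro c hc
    suffices h : Y ≤ Y.comap (MulAut.conj c).toMonoidHom from fun y hy => h hy
    refine sup_le (fun u hu => mem_sup_left ?_) (fun d hd => mem_sup_right ?_)
    · exact ⟨conj_mem_gen x hc hu.1, hVn c u hu.2⟩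
    · exact (mem_normalizer_iff.mp (fx_le_normalizer_dk x inferInstance hc) d).mp hd
  set M := normalizer (Y : Set H) with hM
  have hFM : fx x ≤ M := Coprime.le_normalizer_of_conj_mem hFY
  -- invariant normal subgroups inside `Y`
  have hsmall : ∀ N : Subgroup H, N.Normal → Inv x N → N ≤ Y → N = ⊥ := fun N hN hNi hNY =>
    (hmin N hN hNi (hNY.trans hYV)).resolve_right fun h => hYneV (le_antisymm hYV (h ▸ hNY))
  have hMtop : M ≠ ⊤ := by
    intro h
    have hn : Y.Normal := normalizer_eq_top_iff.mp h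
    exact hDne (le_bot_iff.mp (le_sup_right.trans (le_of_eq (hsmall Y hn hYinv le_rfl))))
  -- proper invariant subgroups over `V`
  have hkey : ∀ K : Subgroup H, Inv x K → V ≤ K → K ≠ ⊤ → ∀ k ∈ dk x K, ∀ v ∈ V,
      ⁅k, v⁆ ∈ Y := by
    intro K hK hVK hKne k hk v hv
    have hz : ⁅k, v⁆ ∈ dk x K ⊓ V := by
      refine ⟨?_, ?_⟩
      · have : ⁅k, v⁆ = k * (v * k⁻¹ * v⁻¹) := by rw [commutatorElement_def]; group
        rw [this]
        exact mul_mem hk ((mem_normalizer_iff.mp (le_normalizer_dk x K (hVK hv)) _).mp (inv_mem hk))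
      · rw [commutatorElement_def]
        exact V.mul_mem (hVn k v hv) (V.inv_mem hv)
    obtain ⟨c, hc, d, hd, hcd⟩ :=
      exists_fixed_mul x hxp hcop ((dk_inv x K).inf x hV) hz
    rw [hcd]
    exact mul_mem (mem_sup_left ⟨hind K hK hKne ⟨hc.1.1, hc.2⟩, hc.1.2⟩)
      (mem_sup_right (dk_mono x inf_le_right hd))
  have hKM : ∀ K : Subgroup H, Inv x K → V ≤ K → K ≠ ⊤ → K ≤ M := by
    intro K hK hVK hKne k hk
    obtain ⟨c, hc, d, hd, rfl⟩ := exists_fixed_mul x hxp hcop hK hk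
    refine mul_mem (hFM hc.2) ?_
    have hle : dk x K ≤ M := Coprime.le_normalizer_of_conj_mem fun d hd y hy => by
      have : d * y * d⁻¹ = ⁅d, y⁆ * y := by rw [commutatorElement_def]; group
      rw [this]
      exact mul_mem (hkey K hK hVK hKne d hd y (hYV hy)) hy
    exact hle hd
  -- `H / V` is an `r`-group
  have hfin : IsOfFinOrder x := isOfFinOrder_iff_pow_eq_one.mpr ⟨p, hp.out.pos, hxp⟩
  haveI : Finite (zpowers x) := hfin.finite_zpowers
  obtain ⟨r, hr, S, hSi, hSV⟩ : ∃ r : ℕ, r.Prime ∧ ∃ S : Sylow r H,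
      Inv x (S : Subgroup H) ∧ (S : Subgroup H) ⊔ V = ⊤ := by
    obtain ⟨r, hr, hrd⟩ := Nat.exists_prime_and_dvd (fun h => hMtop (index_eq_one.mp h))
    haveI := Fact.mk hr
    obtain ⟨S, hS⟩ := Coprime.exists_invariant_sylow_action (p := r) (zpowers x).subtype
      (by rw [Nat.card_zpowers]
          exact Nat.Coprime.coprime_dvd_left (orderOf_dvd_of_pow_eq_one hxp) hcop.symm)
      (Or.inr inferInstance)
    have hSi : Inv x (S : Subgroup H) := fun k hk => hS ⟨x, mem_zpowers x⟩ k hk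
    refine ⟨r, hr, S, hSi, ?_⟩
    by_contra hne
    exact S.not_dvd_index (hrd.trans (index_dvd_of_le
      (le_sup_left.trans (hKM _ (hSi.sup x hV) le_sup_right hne))))
  haveI := Fact.mk hr
  set S' := (S : Subgroup H) with hS'
  have hdec : ∀ h : H, ∃ s ∈ S', ∃ v ∈ V, h = s * v := fun h => by
    obtain ⟨s, hs, v, hv, e⟩ := mem_sup_of_normal_right.mp (hSV ▸ mem_top h : h ∈ S' ⊔ V)
    exact ⟨s, hs, v, hv, e.symm⟩
  have hVp : IsPGroup q V := fun v => ⟨1, Subtype.ext (by simpa using hVq v v.2)⟩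
  have hrq : r ≠ q := by
    rintro rfl
    have := S.isPGroup'.to_sup_of_normal_right hVp
    rw [show (S : Subgroup H) ⊔ V = ⊤ from hSV] at this
    exact hnq (this.of_equiv Subgroup.topEquiv)
  have hdis : ∀ g ∈ S', g ∈ V → g = 1 := by
    intro g hg hgV
    obtain ⟨k, hk⟩ := S.isPGroup' ⟨g, hg⟩
    rw [← orderOf_eq_one_iff]
    have h1 : orderOf g ∣ r ^ k := orderOf_dvd_of_pow_eq_one (by simpa using congrArg Subtype.val hk)
    have h2 : orderOf g ∣ q := orderOf_dvd_of_pow_eq_one (hVq g hgV)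
    exact Nat.dvd_one.mp ((Nat.Coprime.pow_left k ((Nat.coprime_primes hr hqp.out).mpr hrq)).gcd_eq_one
      ▸ Nat.dvd_gcd h1 h2)
  -- faithfulness
  have hZ : ∀ s ∈ S', (∀ v ∈ V, s * v * s⁻¹ = v) → s = 1 := by
    intro s hs hsv
    set Z := S' ⊓ centralizer (V : Set H) with hZdef
    have hZi : Inv x Z := hSi.inf x (inv_centralizer x hxp hcop hV)
    have hsZ : s ∈ Z := ⟨hs, mem_centralizer_iff.mpr fun v hv =>
      (mul_inv_eq_iff_eq_mul.mp (hsv v hv)).symm⟩
    by_contra hs1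
    have hZne : Z ≠ ⊥ := fun h => hs1 (mem_bot.mp (h ▸ hsZ))
    have hZn : Z.Normal := ⟨fun z hz g => by
      obtain ⟨t, ht, v, hv, rfl⟩ := hdec g
      have hzv : v * z * v⁻¹ = z := by
        rw [mem_centralizer_iff.mp hz.2 v hv, mul_inv_cancel_right]
      have : t * v * z * (t * v)⁻¹ = t * z * t⁻¹ := by
        conv_rhs => rw [← hzv]
        group
      rw [this]
      refine ⟨S'.mul_mem (S'.mul_mem ht hz.1) (S'.inv_mem ht), mem_centralizer_iff.mpr fun w hw => ?_⟩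
      have hw' : t⁻¹ * w * t ∈ V := by simpa using hVn t⁻¹ w hw
      calc w * (t * z * t⁻¹) = t * ((t⁻¹ * w * t) * z) * t⁻¹ := by group
        _ = t * (z * (t⁻¹ * w * t)) * t⁻¹ := by rw [mem_centralizer_iff.mp hz.2 _ hw']
        _ = t * z * t⁻¹ * w := by group⟩
    obtain ⟨l, hl, z, hz, hlz⟩ :=
      mem_sup_of_normal_right.mp (hquot Z hZn hZi hZne hc₀f : c₀ ∈ gen x ⊔ Z)
    obtain ⟨k, hk⟩ := S.isPGroup' ⟨z, hz.1⟩
    have hk' : z ^ r ^ k = 1 := by simpa using congrArg Subtype.val hk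
    have hlc : l = c₀ * z⁻¹ := by rw [← hlz, mul_inv_cancel_right]
    have hcomm : Commute c₀ z⁻¹ := Commute.inv_right (mem_centralizer_iff.mp hz.2 c₀ hc₀V)
    have hpw : l ^ r ^ k = c₀ ^ r ^ k := by
      rw [hlc, hcomm.mul_pow, inv_pow, hk', inv_one, mul_one]
    have hcq : (orderOf c₀).Coprime (r ^ k) := Nat.Coprime.coprime_dvd_left
      (orderOf_dvd_of_pow_eq_one (hVq c₀ hc₀V))
      (Nat.Coprime.pow_right k ((Nat.coprime_primes hqp.out hr).mpr (Ne.symm hrq)))
    obtain ⟨m, hm⟩ := exists_pow_eq_self_of_coprime hcq.symm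
    exact hc₀g (by rw [← hm, ← hpw]; exact pow_mem (pow_mem hl _) m)
  -- irreducibility
  have hirr : ∀ T : Subgroup H, T ≤ V → Inv x T → (∀ s ∈ S', ∀ t ∈ T, s * t * s⁻¹ ∈ T) →
      T = ⊥ ∨ T = V := by
    intro T hTV hTi hTS
    refine hmin T ⟨fun t ht g => ?_⟩ hTi hTV
    obtain ⟨s, hs, v, hv, rfl⟩ := hdec g
    have : s * v * t * (s * v)⁻¹ = s * t * s⁻¹ := by
      calc s * v * t * (s * v)⁻¹ = s * (v * t * v⁻¹) * s⁻¹ := by group
        _ = s * t * s⁻¹ := by rw [hVc v hv t (hTV ht), mul_inv_cancel_right]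
    rw [this]
    exact hTS s hs t ht
  -- the complements `[h, P]`
  have hSnle : ¬ S' ≤ M := fun h => hMtop (eq_top_iff.mpr (hSV ▸ sup_le h (hKM V hV le_rfl (fun hVt => hnq (by
    rw [hVt] at hVp
    exact hVp.of_equiv Subgroup.topEquiv)))))
  obtain ⟨q₀, hq₀S, hq₀M⟩ := SetLike.not_le_iff_exists.mp hSnle
  have hquotp : IsPGroup r (H ⧸ V) := S.isPGroup'.of_surjective
    ((QuotientGroup.mk' V).comp S'.subtype) fun h => by
      obtain ⟨g, rfl⟩ := QuotientGroup.mk'_surjective V h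
      obtain ⟨s, hs, v, hv, rfl⟩ := hdec g
      exact ⟨⟨s, hs⟩, (QuotientGroup.eq).mpr (by simpa using hv)⟩
  have hVM : V ≤ M := Coprime.le_normalizer_of_conj_mem fun v hv y hy => by
    rw [hVc v hv y (hYV hy), mul_inv_cancel_right]; exact hy
  have hddV : ∀ h ∉ M, dd x h ⊔ V = ⊤ ∧ ∀ g ∈ dd x h, g ∈ V → g = 1 := by
    intro h hh
    have hgen : orb x h ⊔ V = ⊤ := by
      by_contra hne
      exact hh (hKM _ ((orb_inv x h).sup x hV) le_sup_right hne
        (mem_sup_left (self_mem_orb x h)))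
    have htopd := dd_sup_eq_top x hxp hcop htop V hV hquotp hgen
    refine ⟨htopd, ?_⟩
    have hn : (dd x h ⊓ V).Normal := ⟨fun t ht g => by
      obtain ⟨d, hd, v, hv, rfl⟩ := mem_sup_of_normal_right.mp (htopd ▸ mem_top g : g ∈ dd x h ⊔ V)
      have : d * v * t * (d * v)⁻¹ = d * t * d⁻¹ := by
        calc d * v * t * (d * v)⁻¹ = d * (v * t * v⁻¹) * d⁻¹ := by group
          _ = d * t * d⁻¹ := by rw [hVc v hv t ht.2, mul_inv_cancel_right]
      rw [this]
      exact ⟨(dd x h).mul_mem ((dd x h).mul_mem hd ht.1) ((dd x h).inv_mem hd), hVn d t ht.2⟩⟩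
    rcases hmin _ hn ((dd_inv x h).inf x hV) inf_le_right with h1 | h1
    · intro g hg hgV
      exact mem_bot.mp (h1 ▸ ⟨hg, hgV⟩)
    · exfalso
      have : dd x h = ⊤ := by
        rw [← htopd]; exact (sup_eq_left.mpr (h1.symm.le.trans inf_le_left)).symm
      exact hcon fun c hc => mem_gen x (this ▸ mem_top c) hc
  have hdq : dd x q₀ = S' := by
    refine le_antisymm (dd_le x hSi hq₀S) fun s hs => ?_
    obtain ⟨d, hd, v, hv, hdv⟩ :=
      mem_sup_of_normal_right.mp ((hddV q₀ hq₀M).1 ▸ mem_top s : s ∈ dd x q₀ ⊔ V)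
    have hv1 : v = 1 := hdis v (by
      have : v = d⁻¹ * s := by rw [← hdv, inv_mul_cancel_left]
      rw [this]
      exact mul_mem (inv_mem (dd_le x hSi hq₀S hd)) hs) hv
    rw [← hdv, hv1, mul_one]; exact hd
  -- `S` is abelian
  have hSsol : Group.IsSolvable S' := inferInstance
  have hSne : S' ≠ ⊥ := fun h => hSnle (h ▸ bot_le)
  have hScomm : ∀ a ∈ S', ∀ b ∈ S', a * b = b * a := by
    set K0 := ⁅S', S'⁆ with hK0
    have hK0S : K0 ≤ S' := Subgroup.commutator_le_self S'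
    have hK0i : Inv x K0 := hSi.commutator x hSi
    have hKne : K0 ⊔ V ≠ ⊤ := by
      intro h
      refine (Coprime.commutator_self_lt hSsol hSne).not_ge fun s hs => ?_
      obtain ⟨a, ha, v, hv, hav⟩ := mem_sup_of_normal_right.mp (h ▸ mem_top s : s ∈ K0 ⊔ V)
      have hv1 : v = 1 := hdis v (by
        have : v = a⁻¹ * s := by rw [← hav, inv_mul_cancel_left]
        rw [this]
        exact mul_mem (inv_mem (hK0S ha)) hs) hv
      rw [← hav, hv1, mul_one]; exact ha
    have hW : ∀ z ∈ K0, ∀ v ∈ V, ⁅z, v⁆ ∈ Y := by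
      intro z hz v hv
      obtain ⟨c, hc, d, hd, rfl⟩ := exists_fixed_mul x hxp hcop hK0i hz
      have e : ⁅c * d, v⁆ = (c * ⁅d, v⁆ * c⁻¹) * ⁅c, v⁆ := by
        simp only [commutatorElement_def]; group
      rw [e]
      refine mul_mem (hFY c hc.2 _ (hkey _ (hK0i.sup x hV) le_sup_right hKne d
        (dk_mono x le_sup_left hd) v hv)) ?_
      obtain ⟨u, hu, w, hw, rfl⟩ := exists_fixed_mul x hxp hcop hV hv
      have hcw : ⁅c, w⁆ ∈ D := by
        rw [commutatorElement_def]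
        exact mul_mem ((mem_normalizer_iff.mp (fx_le_normalizer_dk x inferInstance hc.2) w).mp hw)
          (inv_mem hw)
      have hcu : ⁅c, u⁆ ∈ U := by
        rw [commutatorElement_def]
        refine ⟨?_, V.mul_mem (hVn c u hu.1) (V.inv_mem hu.1)⟩
        have h1 : c ∈ gen x := mem_gen x (hdq.symm ▸ hK0S hc.1) hc.2
        have h2 : u * c⁻¹ * u⁻¹ ∈ gen x := conj_mem_gen x hu.2 (inv_mem h1)
        rw [mul_assoc c u c⁻¹, mul_assoc c (u * c⁻¹) u⁻¹]
        exact mul_mem h1 h2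
      have e2 : ⁅c, u * w⁆ = ⁅c, u⁆ * (u * ⁅c, w⁆ * u⁻¹) := by
        simp only [commutatorElement_def]; group
      rw [e2, hVc u hu.1 _ (hDV hcw), mul_inv_cancel_right]
      exact mul_mem (mem_sup_left hcu) (mem_sup_right hcw)
    have hWle : ⁅K0, V⁆ ≤ Y := Subgroup.commutator_le.mpr hW
    have hWi : Inv x ⁅K0, V⁆ := hK0i.commutator x hV
    have hWn : ⁅K0, V⁆.Normal := by
      refine ⟨fun t ht g => ?_⟩
      obtain ⟨s, hs, v, hv, rfl⟩ := hdec g
      have htV : t ∈ V := hYV (hWle ht)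
      have : s * v * t * (s * v)⁻¹ = s * t * s⁻¹ := by
        calc s * v * t * (s * v)⁻¹ = s * (v * t * v⁻¹) * s⁻¹ := by group
          _ = s * t * s⁻¹ := by rw [hVc v hv t htV, mul_inv_cancel_right]
      rw [this]
      suffices h : ⁅K0, V⁆ ≤ (⁅K0, V⁆).comap (MulAut.conj s).toMonoidHom from h ht
      refine Subgroup.commutator_le.mpr fun a ha b hb => ?_
      show MulAut.conj s ⁅a, b⁆ ∈ ⁅K0, V⁆
      rw [map_commutatorElement]
      refine commutator_mem_commutator ?_ (hVn s b hb)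
      have hle : K0 ≤ K0.comap (MulAut.conj s).toMonoidHom :=
        Subgroup.commutator_le.mpr fun a ha b hb => by
          show MulAut.conj s ⁅a, b⁆ ∈ K0
          rw [map_commutatorElement]
          exact commutator_mem_commutator (mul_mem (mul_mem hs ha) (inv_mem hs))
            (mul_mem (mul_mem hs hb) (inv_mem hs))
      exact hle ha
    have hW0 := hsmall _ hWn hWi hWle
    intro a ha b hb
    have hab : ⁅a, b⁆ ∈ K0 := commutator_mem_commutator ha hb
    have h1 : ⁅a, b⁆ = 1 := hZ _ (hK0S hab) fun v hv => by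
      have h2 : ⁅⁅a, b⁆, v⁆ ∈ ⁅K0, V⁆ := commutator_mem_commutator hab hv
      rw [hW0, mem_bot, commutatorElement_eq_one_iff_mul_comm] at h2
      rw [h2, mul_inv_cancel_right]
    exact commutatorElement_eq_one_iff_mul_comm.mp h1
  haveI : IsMulCommutative S' := ⟨⟨fun a b => Subtype.ext (hScomm a a.2 b b.2)⟩⟩
  have hSfix : ∀ s ∈ S', x s = s → s = 1 := fun s hs hsf => by
    refine eq_one_of_fixed_dk_abelian x hxp hcop (A := S') hSi ?_ hsf
    exact dd_le_dk x hq₀S (hdq.symm ▸ hs)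
  -- the splitting
  have hsplit : ∀ v ∈ V, ∃ c1 ∈ V, ∃ c2 ∈ V, x c1 = c1 ∧ x c2 = c2 ∧
      v = c1 * (q₀⁻¹ * c2 * q₀⁻¹⁻¹) := by
    intro v hv
    have hhM : q₀ * v ∉ M := fun h => hq₀M (by
      simpa using mul_mem h (inv_mem (hVM hv)))
    obtain ⟨hT, hTdis⟩ := hddV _ hhM
    set T := dd x (q₀ * v) with hTdef
    have hTi : Inv x T := dd_inv x _
    have hex : ∀ s : S', ∃ w : V, (s : H) * w ∈ T := fun s => by
      obtain ⟨t, ht, w, hw, htw⟩ :=
        mem_sup_of_normal_right.mp (hT ▸ mem_top (s : H) : (s : H) ∈ T ⊔ V)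
      exact ⟨⟨w⁻¹, inv_mem hw⟩, by rw [← htw, mul_inv_cancel_right]; exact ht⟩
    choose δ hδ using hex
    have huniq : ∀ (s : S') (w : V), (s : H) * w ∈ T → w = δ s := fun s w hw => by
      have h1 : ((s : H) * δ s)⁻¹ * ((s : H) * w) ∈ T := mul_mem (inv_mem (hδ s)) hw
      have e : ((s : H) * δ s)⁻¹ * ((s : H) * w) = (δ s : H)⁻¹ * w := by group
      rw [e] at h1
      exact Subtype.ext (inv_mul_eq_one.mp (hTdis _ h1 (mul_mem (inv_mem (δ s).2) w.2))).symm
    let φ : S' → (V ≃* V) := fun s => MulAut.conjNormal (s : H)⁻¹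
    have hφ : ∀ (s : S') (w : V), ((φ s w : V) : H) = (s : H)⁻¹ * w * s := fun s w => by
      rw [show ((φ s w : V) : H) = (s : H)⁻¹ * w * (s : H)⁻¹⁻¹ from MulAut.conjNormal_apply _ w,
        inv_inv]
    have hco : ∀ s t : S', δ (s * t) = φ t (δ s) * δ t := fun s t => by
      symm
      apply huniq
      have : ((s * t : S') : H) * ((φ t (δ s) * δ t : V) : H)
          = ((s : H) * δ s) * ((t : H) * δ t) := by
        rw [Subgroup.coe_mul, Subgroup.coe_mul, hφ]; group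
      rw [this]
      exact mul_mem (hδ s) (hδ t)
    haveI := Fintype.ofFinite S'
    set Δ : V := ∏ s : S', δ s with hΔ
    have hΔφ : ∀ t : S', Δ = φ t Δ * δ t ^ Fintype.card S' := fun t => by
      calc Δ = ∏ s : S', δ (s * t) := (Fintype.prod_equiv (Equiv.mulRight t) _ _ fun s => rfl).symm
        _ = _ := by
          simp only [hco]
          rw [Finset.prod_mul_distrib, map_prod, Finset.prod_const, Finset.card_univ]
    have hcopq : (Fintype.card S').Coprime q := by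
      rw [← Nat.card_eq_fintype_card]
      obtain ⟨k, hk⟩ := IsPGroup.iff_card.mp S.isPGroup'
      rw [show Nat.card S' = r ^ k from hk]
      exact Nat.Coprime.pow_left k ((Nat.coprime_primes hr hqp.out).mpr hrq)
    obtain ⟨e, he⟩ := Coprime.exists_mul_modEq_one hcopq
    have hpe : ∀ w : V, (w ^ Fintype.card S') ^ e = w := fun w => by
      have hq1 : w ^ q = 1 := Subtype.ext (by simpa using hVq w w.2)
      rw [← pow_mul, mul_comm, pow_eq_pow_mod _ hq1, he, ← pow_eq_pow_mod _ hq1, pow_one]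
    set c : V := Δ ^ e with hc
    have hδc : ∀ t : S', δ t = (φ t c)⁻¹ * c := fun t => by
      rw [hc, map_pow, ← inv_pow, ← mul_pow]
      conv_rhs => arg 1; arg 2; rw [hΔφ t]
      rw [inv_mul_cancel_left, hpe]
    have hcf : x (c : H) = c := by
      have hxδ : ∀ s : S', x (δ s : H) = δ ⟨x s, hSi _ s.2⟩ := fun s => by
        have h1 : (⟨x (δ s : H), hV _ (δ s).2⟩ : V) = δ ⟨x s, hSi _ s.2⟩ :=
          huniq ⟨x s, hSi _ s.2⟩ _ (by
            show x (s : H) * x (δ s : H) ∈ T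
            rw [← map_mul]; exact hTi _ (hδ s))
        exact congrArg Subtype.val h1
      have h1 : resAut x hV Δ = Δ := by
        rw [hΔ, map_prod]
        refine Fintype.prod_equiv (resAut x hSi).toEquiv _ _ fun s => Subtype.ext ?_
        show x (δ s : H) = (δ (resAut x hSi s) : H)
        rw [hxδ]; rfl
      have h2 : resAut x hV c = c := by rw [hc, map_pow, h1]
      exact congrArg Subtype.val h2
    -- the element `(q₀ v)⁻¹ x (q₀ v)`
    set a := q₀⁻¹ * x q₀ with ha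
    have haS : a ∈ S' := mul_mem (inv_mem hq₀S) (hSi _ hq₀S)
    have ht : (q₀ * v)⁻¹ * x (q₀ * v) ∈ T := by simpa using mem_dd x (q₀ * v) 1
    have hw : a⁻¹ * v⁻¹ * a * x v ∈ V := mul_mem (by simpa using hVn a⁻¹ v⁻¹ (inv_mem hv)) (hV v hv)
    have h1 := huniq ⟨a, haS⟩ ⟨_, hw⟩ (by
      show a * (a⁻¹ * v⁻¹ * a * x v) ∈ T
      convert ht using 1
      rw [map_mul, ha]; group)
    have h2 : a⁻¹ * v⁻¹ * a * x v = (a⁻¹ * (c : H) * a)⁻¹ * c := by
      have := congrArg Subtype.val (h1.trans (hδc ⟨a, haS⟩))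
      rw [Subgroup.coe_mul, Subgroup.coe_inv, hφ] at this
      exact this
    set u := v * (c : H)⁻¹ with hu
    have huV : u ∈ V := mul_mem hv (inv_mem c.2)
    have hxu : x u = a⁻¹ * u * a := by
      have h3 : x v = a⁻¹ * v * a * ((a⁻¹ * (c : H) * a)⁻¹ * c) := by rw [← h2]; group
      rw [hu, map_mul, map_inv, hcf, h3]; group
    refine ⟨c, c.2, q₀ * u * q₀⁻¹, hVn q₀ u huV, hcf, ?_, ?_⟩
    · rw [map_mul, map_mul, map_inv, hxu, show x q₀ = q₀ * a by rw [ha, mul_inv_cancel_left]]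
      group
    · rw [hVc _ c.2 _ (hVn q₀⁻¹ _ (hVn q₀ u huV)), hu]
      group
  have hfix := no_split x hp.out hp2 hxp hcop (V := V) (S := S') hV hSi hScomm hirr hZ
    (inv_mem hq₀S) ⟨c₀, hc₀V, fun h => hc₀g (h ▸ one_mem _), hc₀f⟩ hsplit
  rw [map_inv, inv_inj] at hfix
  exact hq₀M ((hSfix q₀ hq₀S hfix) ▸ one_mem M)

end CfsgLib.FixGen
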