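import Cfsg.Agent.FixGen.Alg
import Cfsg.Agent.FixGen.Basic
import Mathlib.Algebra.Module.End
import Mathlib.Algebra.Ring.Subring.Basic
import Mathlib.RingTheory.NonUnitalSubring.Basic

/-!
An abelian complement cannot give a quadratic splitting: translation of `not_quadratic_split`.
-/

set_option autoImplicit false

namespace CfsgLib.FixGen

open Subgroup
open scoped IsMulCommutative

variable {H : Type*} [Group H] (x : MulAut H)

/-- `x` restricted to an invariant subgroup -/
noncomputable def resAut [Finite H] {K : Subgroup H} (hK : Inv x K) : K ≃* K :=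
  MulEquiv.ofBijective
    (((x : H →* H).comp K.subtype).codRestrict K fun k => hK k k.2)
    (Finite.injective_iff_bijective.mp fun _ _ h => Subtype.ext (x.injective (congrArg Subtype.val h)))

theorem resAut_coe [Finite H] {K : Subgroup H} (hK : Inv x K) (k : K) :
    ((resAut x hK k : K) : H) = x k := rfl

theorem resAut_pow_coe [Finite H] {K : Subgroup H} (hK : Inv x K) (n : ℕ) (k : K) :
    (((resAut x hK) ^ n : MulAut K) k : H) = (x ^ n) (k : H) := by
  induction n with
  | zero => rfl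
  | succ n ih =>
    rw [pow_succ', MulAut.mul_apply, resAut_coe, ih, pow_succ', MulAut.mul_apply]

theorem no_split [Finite H] {p : ℕ} (hp : p.Prime) (hp2 : p ≠ 2) (hxp : x ^ p = 1)
    (hcop : (Nat.card H).Coprime p) {V S : Subgroup H} [V.Normal] [IsMulCommutative V]
    (hV : Inv x V) (hS : Inv x S) (hSc : ∀ a ∈ S, ∀ b ∈ S, a * b = b * a)
    (irr : ∀ T : Subgroup H, T ≤ V → Inv x T → (∀ s ∈ S, ∀ t ∈ T, s * t * s⁻¹ ∈ T) →
      T = ⊥ ∨ T = V)
    (faith : ∀ s ∈ S, (∀ v ∈ V, s * v * s⁻¹ = v) → s = 1)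
    {y : H} (hy : y ∈ S) (hne : ∃ c ∈ V, c ≠ 1 ∧ x c = c)
    (hsplit : ∀ v ∈ V, ∃ c1 ∈ V, ∃ c2 ∈ V, x c1 = c1 ∧ x c2 = c2 ∧ v = c1 * (y * c2 * y⁻¹)) :
    x y = y := by
  haveI : Fact p.Prime := ⟨hp⟩
  let W := Additive V
  let ρ : H → AddMonoid.End W := fun s =>
    MonoidHom.toAdditive ((MulAut.conjNormal s : MulAut V) : V →* V)
  have hρ : ∀ (s : H) (w : W),
      ((Additive.toMul (ρ s w) : V) : H) = s * ((Additive.toMul w : V) : H) * s⁻¹ := fun s w =>
    MulAut.conjNormal_apply s (Additive.toMul w)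
  set R : Subring (AddMonoid.End W) := Subring.closure (ρ '' (S : Set H)) with hR
  haveI : IsMulCommutative R := Subring.isMulCommutative_closure (by
    rintro _ ⟨a, ha, rfl⟩ _ ⟨b, hb, rfl⟩
    refine AddMonoidHom.ext fun w => Additive.toMul.injective (Subtype.ext ?_)
    show ((Additive.toMul (ρ a (ρ b w)) : V) : H) = ((Additive.toMul (ρ b (ρ a w)) : V) : H)
    rw [hρ, hρ, hρ, hρ]
    calc a * (b * ((Additive.toMul w : V) : H) * b⁻¹) * a⁻¹
        = (a * b) * ((Additive.toMul w : V) : H) * (a * b)⁻¹ := by group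
      _ = (b * a) * ((Additive.toMul w : V) : H) * (b * a)⁻¹ := by rw [hSc a ha b hb]
      _ = b * (a * ((Additive.toMul w : V) : H) * a⁻¹) * b⁻¹ := by group)
  let X : W ≃+ W := MulEquiv.toAdditive (resAut x hV)
  have hXv : ∀ w : W, ((Additive.toMul (X w) : V) : H) = x ((Additive.toMul w : V) : H) :=
    fun w => rfl
  let Φ : AddMonoid.End W →+* AddMonoid.End W :=
    { toFun := fun a => (X.toAddMonoidHom.comp a).comp X.symm.toAddMonoidHom
      map_one' := AddMonoidHom.ext fun w => X.apply_symm_apply w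
      map_mul' := fun a b => AddMonoidHom.ext fun w => by
        show X (a (b (X.symm w))) = X (a (X.symm (X (b (X.symm w)))))
        rw [X.symm_apply_apply]
      map_zero' := AddMonoidHom.ext fun w => map_zero X
      map_add' := fun a b => AddMonoidHom.ext fun w => map_add X _ _ }
  have hΦρ : ∀ s : H, Φ (ρ s) = ρ (x s) := fun s =>
    AddMonoidHom.ext fun w => Additive.toMul.injective (Subtype.ext (by
      show ((Additive.toMul (X (ρ s (X.symm w))) : V) : H) = _
      rw [hXv, hρ, map_mul, map_mul, map_inv, ← hXv, X.apply_symm_apply]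
      exact (hρ (x s) w).symm))
  have hΦR : ∀ a : R, Φ (a : AddMonoid.End W) ∈ R := by
    intro a
    have hle : R ≤ R.comap Φ := by
      rw [hR, Subring.closure_le]
      rintro _ ⟨s, hs, rfl⟩
      show Φ (ρ s) ∈ Subring.closure (ρ '' (S : Set H))
      rw [hΦρ]
      exact Subring.subset_closure ⟨x s, hS s hs, rfl⟩
    exact hle a.2
  let σ : R →+* R := (Φ.comp R.subtype).codRestrict R hΦR
  have hmem : ∀ s ∈ S, ρ s ∈ R := fun s hs => Subring.subset_closure ⟨s, hs, rfl⟩
  set yR : R := ⟨ρ y, hmem y hy⟩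
  have key : σ yR = yR := by
    refine not_quadratic_split (W := W) (fun (a : R) (ha : ∀ w : W, a • w = 0) => Subtype.ext (AddMonoidHom.ext fun w => ha w))
      X σ ?_ hp hp2 ?_ ?_ ?_ ?_ yR ?_
    · intro a w
      show X ((a : AddMonoid.End W) w) = X ((a : AddMonoid.End W) (X.symm (X w)))
      rw [X.symm_apply_apply]
    · intro w
      refine Additive.toMul.injective (Subtype.ext ?_)
      have hit : ∀ n : ℕ, ((Additive.toMul ((⇑X)^[n] w) : V) : H)
          = (x ^ n) ((Additive.toMul w : V) : H) := by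
        intro n
        induction n with
        | zero => rfl
        | succ n ih => rw [Function.iterate_succ_apply', hXv, ih, pow_succ', MulAut.mul_apply]
      rw [hit, hxp]; rfl
    · intro w hw
      refine Additive.toMul.injective (Subtype.ext (eq_one_of_pow hcop ?_))
      have h0 : (Additive.toMul w : V) ^ p = 1 := congrArg Additive.toMul hw
      simpa using congrArg Subtype.val h0
    · intro T hT hTX
      let T' : Subgroup H :=
        { carrier := {h | ∃ hh : h ∈ V, Additive.ofMul (⟨h, hh⟩ : V) ∈ T}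
          one_mem' := ⟨one_mem V, T.zero_mem⟩
          mul_mem' := fun ⟨ha, ha'⟩ ⟨hb, hb'⟩ => ⟨mul_mem ha hb, T.add_mem ha' hb'⟩
          inv_mem' := fun ⟨ha, ha'⟩ => ⟨inv_mem ha, T.neg_mem ha'⟩ }
      have h1 : ∀ w : W, w ∈ T ↔ ((Additive.toMul w : V) : H) ∈ T' := fun w =>
        ⟨fun h => ⟨(Additive.toMul w).2, h⟩, fun ⟨_, h⟩ => h⟩
      rcases irr T' (fun h ⟨hh, _⟩ => hh) (fun h ⟨hh, hm⟩ => ⟨hV h hh, hTX _ hm⟩)
        (fun s hs t ⟨ht, htT⟩ => by
          have h2 := (h1 _).mp (hT ⟨ρ s, hmem s hs⟩ _ htT)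
          have h3 : ((Additive.toMul ((⟨ρ s, hmem s hs⟩ : R) • Additive.ofMul (⟨t, ht⟩ : V)) : V) : H)
              = s * t * s⁻¹ := hρ s (Additive.ofMul (⟨t, ht⟩ : V))
          rwa [h3] at h2) with h | h
      · left
        refine (AddSubgroup.eq_bot_iff_forall T).mpr fun w hw => ?_
        have := (h1 w).mp hw
        rw [h, mem_bot] at this
        exact Additive.toMul.injective (Subtype.ext this)
      · right
        refine eq_top_iff.mpr fun w _ => (h1 w).mpr ?_
        rw [h]; exact (Additive.toMul w).2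
    · obtain ⟨c, hc, hc1, hcf⟩ := hne
      refine ⟨Additive.ofMul ⟨c, hc⟩, fun h => hc1 ?_, Additive.toMul.injective (Subtype.ext hcf)⟩
      exact congrArg (fun u : W => ((Additive.toMul u : V) : H)) h
    · intro w
      obtain ⟨c1, hc1, c2, hc2, hf1, hf2, hv⟩ := hsplit _ (Additive.toMul w).2
      refine ⟨Additive.ofMul ⟨c1, hc1⟩, Additive.ofMul ⟨c2, hc2⟩,
        Additive.toMul.injective (Subtype.ext hf1), Additive.toMul.injective (Subtype.ext hf2),
        Additive.toMul.injective (Subtype.ext ?_)⟩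
      exact hv.trans (congrArg (c1 * ·) (hρ y (Additive.ofMul ⟨c2, hc2⟩)).symm)
  have h1 : ρ (x y) = ρ y := by rw [← hΦρ]; exact congrArg Subtype.val key
  have h2 := faith (y⁻¹ * x y) (mul_mem (inv_mem hy) (hS y hy)) fun v hv => by
    have h3 : x y * v * (x y)⁻¹ = y * v * y⁻¹ := by
      have := congrArg (fun e : AddMonoid.End W =>
        ((Additive.toMul (e (Additive.ofMul (⟨v, hv⟩ : V))) : V) : H)) h1
      rwa [hρ, hρ] at this
    calc y⁻¹ * x y * v * (y⁻¹ * x y)⁻¹ = y⁻¹ * (x y * v * (x y)⁻¹) * y := by group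
      _ = v := by rw [h3]; group
  exact (inv_mul_eq_one.mp h2).symm

end CfsgLib.FixGen
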